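import Cfsg.Agent.H477.HC.Rk3Chars

/-!
# The exact number of totally singular subspaces (helper539)

`card_Om_rec` : `|Om_(k+1)(F)| (q^(k+1) - 1) = |{v ≠ 0 singular}| |Om_k(F')|` for a hyperbolic pair with complement `F'`;
`dg_rec`, `dg_one` : the degrees `dg F k`; `dg_odd`, `dg_plus`, `dg_minus` : exact values.
-/

set_option autoImplicit false

open Cfsg

namespace Cfsg.Agent.H539.Eight

open Module Cfsg.Agent.H477.HC Cfsg.Agent.H477.HC.CForm

universe u v w

section

variable {K : Type u} [Field K] {V : Type v} [AddCommGroup V] [Module K V] {F : CForm K V}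
  {X : Type w} [AddCommGroup X] [Module K X] {F' : CForm K X} {e f : V} {j : X →ₗ[K] V}

/-- the subspace `⟨e⟩ + j(W')` -/
def up (e : V) (j : X →ₗ[K] V) (W : Submodule K X) : Submodule K V := Submodule.span K {e} ⊔ W.map j

theorem mem_up {W : Submodule K X} {v : V} : v ∈ up e j W ↔ ∃ c : K, ∃ x ∈ W, v = c • e + j x := by
  unfold up
  rw [Submodule.mem_sup]
  constructor
  · rintro ⟨a, ha, b, hb, rfl⟩
    obtain ⟨c, rfl⟩ := Submodule.mem_span_singleton.1 ha
    obtain ⟨x, hx, rfl⟩ := hb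
    exact ⟨c, x, hx, rfl⟩
  · rintro ⟨c, x, hx, rfl⟩
    exact ⟨_, Submodule.smul_mem _ _ (Submodule.mem_span_singleton_self e), _, ⟨x, hx, rfl⟩, rfl⟩

theorem finrank_up [FiniteDimensional K V] (h : Hyp F F' e f j) (W : Submodule K X) :
    finrank K (up e j W) = finrank K W + 1 := by
  have h1 := Submodule.finrank_sup_add_finrank_inf_eq (Submodule.span K {e}) (W.map j)
  have h2 : Submodule.span K {e} ⊓ W.map j = ⊥ := by
    rw [eq_bot_iff]
    rintro _ ⟨h3, x, hx, rfl⟩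
    obtain ⟨c, hc⟩ := Submodule.mem_span_singleton.1 h3
    have h4 := h.hjf x
    rw [← hc, F.B_smul_left, h.hef, mul_one] at h4
    rw [← hc, h4, zero_smul]
    exact Submodule.zero_mem _
  have h3 : finrank K (W.map j) = finrank K W :=
    (Submodule.equivMapOfInjective j h.inj W).finrank_eq.symm
  rw [h2, finrank_bot, finrank_span_singleton h.e0, h3] at h1
  unfold up
  omega

theorem comap_up (h : Hyp F F' e f j) (W : Submodule K X) : (up e j W).comap j = W := by
  apply le_antisymm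
  · intro x hx
    obtain ⟨c, y, hy, h1⟩ := mem_up.1 hx
    have h2 := h.hjf x
    rw [h1, F.B_add_left, F.B_smul_left, h.hef, h.hjf, mul_one, add_zero] at h2
    rw [h2, zero_smul, zero_add] at h1
    rw [h.inj h1]
    exact hy
  · intro x hx
    exact mem_up.2 ⟨0, x, hx, by rw [zero_smul, zero_add]⟩

theorem up_comap (h : Hyp F F' e f j) {W : Submodule K V} (hW : F.TS W) (he : e ∈ W) : up e j (W.comap j) = W := by
  apply le_antisymm
  · intro v hv
    obtain ⟨c, x, hx, rfl⟩ := mem_up.1 hv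
    exact W.add_mem (W.smul_mem c he) hx
  · intro v hv
    obtain ⟨x, hx⟩ := h.dec_e (hW.2 v hv e he)
    refine mem_up.2 ⟨_, x, ?_, hx⟩
    have h1 : j x = v - F.B v f • e := by rw [eq_sub_iff_add_eq, add_comm]; exact hx.symm
    change j x ∈ W
    rw [h1]
    exact W.sub_mem hv (W.smul_mem _ he)

theorem TS_up (h : Hyp F F' e f j) {W : Submodule K X} (hW : F'.TS W) : F.TS (up e j W) := by
  have hs : ∀ v ∈ up e j W, F.Sing v := by
    intro v hv
    obtain ⟨c, x, hx, rfl⟩ := mem_up.1 hv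
    exact h.sing_ej.2 (hW.sing hx)
  refine ⟨fun v hv => (hs v hv).1, fun v hv v' hv' => ?_⟩
  obtain ⟨c, x, hx, rfl⟩ := mem_up.1 hv
  obtain ⟨c', x', hx', rfl⟩ := mem_up.1 hv'
  have h1 := F.B_eq_zero (h.hje x')
  rw [F.B_add_left, F.B_add_right, F.B_add_right, F.B_smul_left, F.B_smul_left, F.B_smul_right, F.B_smul_right, h.he.2,
    h1, h.hje, h.hjB, hW.2 x hx x' hx']
  ring

theorem TS_comap (h : Hyp F F' e f j) {W : Submodule K V} (hW : F.TS W) : F'.TS (W.comap j) :=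
  ⟨fun x hx => by rw [← h.hjQ]; exact hW.1 _ hx, fun x hx y hy => by rw [← h.hjB]; exact hW.2 _ hx _ hy⟩

/-- the totally singular subspaces containing `e` -/
theorem card_containing [FiniteDimensional K V] (h : Hyp F F' e f j) (k : ℕ) :
    Nat.card {W : F.Om (k + 1) // e ∈ (W : Submodule K V)} = Nat.card (F'.Om k) := by
  refine Nat.card_congr
    { toFun := fun W => ⟨W.1.1.comap j, TS_comap h W.1.2.1, ?_⟩
      invFun := fun W => ⟨⟨up e j W.1, TS_up h W.2.1, ?_⟩, mem_up.2 ⟨1, 0, W.1.zero_mem, by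
        rw [one_smul, map_zero, add_zero]⟩⟩
      left_inv := fun W => Subtype.ext (Subtype.ext (up_comap h W.1.2.1 W.2))
      right_inv := fun W => Subtype.ext (comap_up h W.1) }
  · have h1 := finrank_up h (W.1.1.comap j)
    rw [up_comap h W.1.2.1 W.2, W.1.2.2] at h1
    omega
  · rw [finrank_up h, W.2.2]

theorem card_mem_le [Finite V] (g : F.iso) (v : V) (k : ℕ) :
    Nat.card {W : F.Om k // v ∈ (W : Submodule K V)} ≤
      Nat.card {W : F.Om k // (g : V ≃ₗ[K] V) v ∈ (W : Submodule K V)} := by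
  have := finite_Om F k
  refine Nat.card_le_card_of_injective (fun W => ⟨⟨W.1.1.map (F.iso.subtype g : V →ₗ[K] V), F.Om_map g _ W.1.2⟩,
    ⟨v, W.2, rfl⟩⟩) ?_
  intro W W' hW
  apply Subtype.ext
  apply Subtype.ext
  have h1 : W.1.1.map (F.iso.subtype g : V →ₗ[K] V) = W'.1.1.map (F.iso.subtype g : V →ₗ[K] V) :=
    congrArg (fun W => (W.1.1 : Submodule K V)) hW
  exact Submodule.map_injective_of_injective (LinearEquiv.injective (F.iso.subtype g)) h1

theorem card_mem_smul (v : V) {c : K} (hc : c ≠ 0) (k : ℕ) :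
    Nat.card {W : F.Om k // c • v ∈ (W : Submodule K V)} = Nat.card {W : F.Om k // v ∈ (W : Submodule K V)} := by
  refine Nat.card_congr (Equiv.subtypeEquivRight fun W => ?_)
  exact Submodule.smul_mem_iff _ hc

theorem card_mem [FiniteDimensional K V] [Finite V] {v w : V} (hv0 : v ≠ 0) (hv : F.Sing v) (hw0 : w ≠ 0) (hw : F.Sing w)
    (k : ℕ) : Nat.card {W : F.Om k // v ∈ (W : Submodule K V)} = Nat.card {W : F.Om k // w ∈ (W : Submodule K V)} := by
  have key : ∀ {v w : V} (hv0 : v ≠ 0) (hv : F.Sing v) (hw0 : w ≠ 0) (hw : F.Sing w),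
      Nat.card {W : F.Om k // v ∈ (W : Submodule K V)} ≤ Nat.card {W : F.Om k // w ∈ (W : Submodule K V)} := by
    intro v w hv0 hv hw0 hw
    obtain ⟨g, hg⟩ := F.trans_Om (F.pt v hv0 hv).2 (F.pt w hw0 hw).2
    have hg' : g • F.pt v hv0 hv = F.pt w hw0 hw := Subtype.ext hg
    rw [F.smul_pt, F.pt_eq_iff] at hg'
    obtain ⟨c, hc, hc'⟩ := hg'
    refine (card_mem_le g v k).trans (le_of_eq ?_)
    rw [hc', card_mem_smul w hc]
  exact le_antisymm (key hv0 hv hw0 hw) (key hw0 hw hv0 hv)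

/-- **double counting** -/
theorem card_Om_rec [FiniteDimensional K V] [Finite K] [Finite V] (h : Hyp F F' e f j) (k : ℕ) :
    Nat.card (F.Om (k + 1)) * (Nat.card K ^ (k + 1) - 1) =
      Nat.card {v : V // v ≠ 0 ∧ F.Sing v} * Nat.card (F'.Om k) := by
  classical
  have hfin := finite_Om F (k + 1)
  have := Fintype.ofFinite (F.Om (k + 1))
  have := Fintype.ofFinite {v : V // v ≠ 0 ∧ F.Sing v}
  have h1 : Nat.card (Σ W : F.Om (k + 1), {v : V // v ≠ 0 ∧ v ∈ (W : Submodule K V)}) =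
      Nat.card (Σ v : {v : V // v ≠ 0 ∧ F.Sing v}, {W : F.Om (k + 1) // (v : V) ∈ (W : Submodule K V)}) :=
    Nat.card_congr
      { toFun := fun p => ⟨⟨p.2.1, p.2.2.1, p.1.2.1.sing p.2.2.2⟩, ⟨p.1, p.2.2.2⟩⟩
        invFun := fun p => ⟨p.2.1, ⟨p.1.1, p.1.2.1, p.2.2⟩⟩
        left_inv := fun p => rfl
        right_inv := fun p => rfl }
  rw [Nat.card_sigma, Nat.card_sigma] at h1
  have h2 : ∀ W : F.Om (k + 1), Nat.card {v : V // v ≠ 0 ∧ v ∈ (W : Submodule K V)} = Nat.card K ^ (k + 1) - 1 := by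
    intro W
    have h3 := card_ne_zero (V := V) (fun v => v ∈ (W : Submodule K V)) (Submodule.zero_mem _)
    have h4 : Nat.card {v : V // v ∈ (W : Submodule K V)} = Nat.card K ^ (k + 1) := by
      have := Module.natCard_eq_pow_finrank (K := K) (V := (W : Submodule K V))
      rw [W.2.2] at this
      exact this
    omega
  have h3 : ∀ v : {v : V // v ≠ 0 ∧ F.Sing v}, Nat.card {W : F.Om (k + 1) // (v : V) ∈ (W : Submodule K V)} =
      Nat.card (F'.Om k) := by
    intro v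
    rw [← card_containing h k]
    exact card_mem v.2.1 v.2.2 h.e0 h.he _
  rw [Finset.sum_congr rfl fun W _ => h2 W, Finset.sum_congr rfl fun v _ => h3 v, Finset.sum_const, Finset.sum_const,
    Finset.card_univ, Finset.card_univ, smul_eq_mul, smul_eq_mul, ← Nat.card_eq_fintype_card,
    ← Nat.card_eq_fintype_card] at h1
  exact h1

theorem card_Om_zero [FiniteDimensional K V] (F : CForm K V) : Nat.card (F.Om 0) = 1 := by
  rw [Nat.card_eq_one_iff_exists]
  refine ⟨⟨⊥, ⟨fun w hw => ?_, fun w hw w' hw' => ?_⟩, finrank_bot K V⟩, ?_⟩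
  · rw [(Submodule.mem_bot K).1 hw, F.Q_zero]
  · rw [(Submodule.mem_bot K).1 hw, F.B_zero_left]
  · rintro ⟨W, hW, hW0⟩
    exact Subtype.ext (Submodule.finrank_eq_zero.1 hW0)

theorem dg_rec [FiniteDimensional K V] [Finite K] [Finite V] (h : Hyp F F' e f j) {k : ℕ} (hk : 0 < k) :
    dg F (k + 1) * (Nat.card K ^ (k + 1) - 1) =
      Nat.card {v : V // v ≠ 0 ∧ F.Sing v} * (dg F' k * (Nat.card K ^ k - 1)) := by
  have h1 := card_Om_rec h k
  unfold dg
  rw [Finset.prod_Ico_succ_top (by omega)]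
  calc Nat.card (F.Om (k + 1)) * ((∏ i ∈ Finset.Ico 1 k, (Nat.card K ^ i - 1)) * (Nat.card K ^ k - 1)) *
        (Nat.card K ^ (k + 1) - 1) = (Nat.card (F.Om (k + 1)) * (Nat.card K ^ (k + 1) - 1)) *
          ((∏ i ∈ Finset.Ico 1 k, (Nat.card K ^ i - 1)) * (Nat.card K ^ k - 1)) := by ring
    _ = _ := by rw [h1]; ring

theorem dg_one [FiniteDimensional K V] [FiniteDimensional K X] [Finite K] [Finite V] (h : Hyp F F' e f j) :
    dg F 1 * (Nat.card K ^ 1 - 1) = Nat.card {v : V // v ≠ 0 ∧ F.Sing v} := by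
  have h1 := card_Om_rec h 0
  rw [card_Om_zero, mul_one] at h1
  unfold dg
  rw [Finset.Ico_self, Finset.prod_empty, mul_one]
  exact h1

end

section models

variable (K : Type u) [Field K] [Finite K]

omit [Finite K] in
theorem card_ne_sing {V : Type v} [AddCommGroup V] [Module K V] [Finite V] (F : CForm K V) :
    Nat.card {v : V // v ≠ 0 ∧ F.Sing v} + 1 = Nat.card {v : V // F.Q v = 0} := by
  rw [card_ne_zero (V := V) (fun v => F.Sing v) sing_zero, card_Sing_quad]

theorem card_ns_odd (h2 : (2 : K) ≠ 0) (ho : Odd (Nat.card K)) (m : ℕ) :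
    Nat.card {v : Unit ⊕ (Fin m ⊕ Fin m) → K // v ≠ 0 ∧ (oddF K m h2).Sing v} = Nat.card K ^ (2 * m) - 1 := by
  let _ := Fintype.ofFinite K
  have h1 := card_ne_sing K (oddF K m h2)
  have h3 : Nat.card {v : Unit ⊕ (Fin m ⊕ Fin m) → K // (oddF K m h2).Q v = 0} = Nat.card K ^ (2 * m) :=
    S0291.result Nat.card_eq_fintype_card.symm ho m
  omega

theorem card_ns_plus {m : ℕ} (hm : 1 ≤ m) :
    Nat.card {v : Fin m ⊕ Fin m → K // v ≠ 0 ∧ (plusF K m).Sing v} =
      (Nat.card K ^ m - 1) * (Nat.card K ^ (m - 1) + 1) := by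
  let _ := Fintype.ofFinite K
  have h1 := card_ne_sing K (plusF K m)
  have h3 : Nat.card {v : Fin m ⊕ Fin m → K // (plusF K m).Q v = 0} =
      Nat.card K ^ (2 * m - 1) + Nat.card K ^ m - Nat.card K ^ (m - 1) :=
    S0289.result Nat.card_eq_fintype_card.symm m hm
  obtain ⟨n, rfl⟩ : ∃ n, m = n + 1 := ⟨m - 1, by omega⟩
  rw [Nat.add_sub_cancel, num_plus Finite.one_lt_card n] at h3
  rw [Nat.add_sub_cancel]
  omega

theorem card_ns_minus (a b : K) (hab : ∀ z₁ z₂ : K, z₁ ^ 2 + a * z₁ * z₂ + b * z₂ ^ 2 = 0 → z₁ = 0 ∧ z₂ = 0) (l : ℕ) :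
    Nat.card {v : (Fin l ⊕ Fin l) ⊕ Fin 2 → K // v ≠ 0 ∧ (minusF K l a b hab).Sing v} =
      (Nat.card K ^ l - 1) * (Nat.card K ^ (l + 1) + 1) := by
  let _ := Fintype.ofFinite K
  have h1 := card_ne_sing K (minusF K l a b hab)
  have h3 : Nat.card {v : (Fin l ⊕ Fin l) ⊕ Fin 2 → K // (minusF K l a b hab).Q v = 0} = _ :=
    S0290.result Nat.card_eq_fintype_card.symm (l + 1) (by omega) a b hab
  rw [Nat.add_sub_cancel, num_minus Finite.one_lt_card l] at h3
  omega

theorem dg_odd (h2 : (2 : K) ≠ 0) (ho : Odd (Nat.card K)) {k : ℕ} (hk : 1 ≤ k) (n : ℕ) :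
    dg (oddF K (k + n) h2) k * (Nat.card K ^ k - 1) = ∏ i ∈ Finset.Ico n (k + n), (Nat.card K ^ (2 * (i + 1)) - 1) := by
  induction k, hk using Nat.le_induction with
  | base =>
    obtain ⟨e, f, j, h⟩ := frm_odd (K := K) h2 (show 1 + n = 1 + n from rfl)
    rw [dg_one h.hyp, card_ns_odd K h2 ho, add_comm 1 n, Nat.Ico_succ_singleton, Finset.prod_singleton]
  | succ k hk ih =>
    obtain ⟨e, f, j, h⟩ := frm_odd (K := K) h2 (show 1 + (k + n) = k + 1 + n by omega)
    rw [dg_rec h.hyp hk, card_ns_odd K h2 ho, ih, show k + 1 + n = k + n + 1 by omega,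
      Finset.prod_Ico_succ_top (by omega), mul_comm]

theorem dg_plus {k : ℕ} (hk : 1 ≤ k) (n : ℕ) :
    dg (plusF K (k + n)) k * (Nat.card K ^ k - 1) =
      ∏ i ∈ Finset.Ico n (k + n), ((Nat.card K ^ (i + 1) - 1) * (Nat.card K ^ i + 1)) := by
  induction k, hk using Nat.le_induction with
  | base =>
    obtain ⟨e, f, j, h⟩ := frm_plus (K := K) (show 1 + n = 1 + n from rfl)
    rw [dg_one h.hyp, card_ns_plus K (by omega), add_comm 1 n, Nat.Ico_succ_singleton, Finset.prod_singleton,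
      Nat.add_sub_cancel]
  | succ k hk ih =>
    obtain ⟨e, f, j, h⟩ := frm_plus (K := K) (show 1 + (k + n) = k + 1 + n by omega)
    rw [dg_rec h.hyp hk, card_ns_plus K (by omega), ih, show k + 1 + n = k + n + 1 by omega,
      Finset.prod_Ico_succ_top (by omega), mul_comm, Nat.add_sub_cancel]

theorem dg_minus (a b : K) (hab : ∀ z₁ z₂ : K, z₁ ^ 2 + a * z₁ * z₂ + b * z₂ ^ 2 = 0 → z₁ = 0 ∧ z₂ = 0) {k : ℕ}
    (hk : 1 ≤ k) (n : ℕ) :
    dg (minusF K (k + n) a b hab) k * (Nat.card K ^ k - 1) =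
      ∏ i ∈ Finset.Ico n (k + n), ((Nat.card K ^ (i + 1) - 1) * (Nat.card K ^ (i + 2) + 1)) := by
  induction k, hk using Nat.le_induction with
  | base =>
    obtain ⟨e, f, j, h⟩ := frm_minus (K := K) hab (show 1 + n = 1 + n from rfl)
    rw [dg_one h.hyp, card_ns_minus K, add_comm 1 n, Nat.Ico_succ_singleton, Finset.prod_singleton]
  | succ k hk ih =>
    obtain ⟨e, f, j, h⟩ := frm_minus (K := K) hab (show 1 + (k + n) = k + 1 + n by omega)
    rw [dg_rec h.hyp hk, card_ns_minus K, ih, show k + 1 + n = k + n + 1 by omega,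
      Finset.prod_Ico_succ_top (by omega), mul_comm]

end models

end Cfsg.Agent.H539.Eight
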