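import Cfsg.Agent.H477.HC.Hecke

/-!
# Irreducible characters from invariant kernels (helper539)

A finite group `G` acts on a finite set `N`; `pr G N` is the representation on `N → ℂ`.
`isIrr_idem` : the image of an equivariant idempotent `π` is irreducible if the equivariant `k = π k π` are multiples of `π`.
`exists_one` : `E`, `T` invariant kernels, `E² = E`, `E T = T E = T`, `T² = (λ + μ) T - λ μ E`, and every invariant kernel
`k = E k E` is a combination of `E` and `T`: there is an irreducible character `χ` with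
`(λ - μ) χ(1) = tr T - μ tr E`.
-/

set_option autoImplicit false
set_option linter.unusedSectionVars false

open scoped ComplexConjugate
open Cfsg

namespace Cfsg.Agent.H539.Eight

open Cfsg.Agent.Characters Module Cfsg.Agent.H477.HC Representation

universe u v

theorem isIrr_idem {G : Type u} [Group G] [Finite G] {V : Type v} [AddCommGroup V] [Module ℂ V] [FiniteDimensional ℂ V]
    (τ : Representation ℂ G V) (π : V →ₗ[ℂ] V) (h1 : π * π = π) (h2 : ∀ g, τ g * π = π * τ g) (h0 : π ≠ 0)
    (h3 : ∀ k : V →ₗ[ℂ] V, (∀ g, τ g * k = k * τ g) → π * k = k → k * π = k → ∃ a : ℂ, k = a • π) :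
    IsIrrCharacter G (fun g => LinearMap.trace ℂ V (τ g * π)) := by
  classical
  have := Fintype.ofFinite G
  let W : Subrepresentation τ :=
    { toSubmodule := LinearMap.range π
      apply_mem_toSubmodule := by
        rintro g _ ⟨v, rfl⟩
        exact ⟨τ g v, (LinearMap.congr_fun (h2 g) v).symm⟩ }
  have hc : (fun g => LinearMap.trace ℂ V (τ g * π)) = W.toRepresentation.character := by
    ext g
    have h4 : ∀ v, (τ g * π) v ∈ LinearMap.range π := fun v => ⟨τ g v, (LinearMap.congr_fun (h2 g) v).symm⟩
    rw [← LinearMap.trace_restrict_eq_of_forall_mem (LinearMap.range π) (τ g * π) h4]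
    change _ = LinearMap.trace ℂ _ (W.toRepresentation g)
    congr 1
    refine LinearMap.ext fun v => ?_
    apply Subtype.ext
    obtain ⟨v, v', rfl⟩ := v
    exact congrArg (τ g) (LinearMap.congr_fun h1 v')
  rw [hc]
  have hch := Core.isCharacter_of_rep W.toRepresentation
  apply Core.isIrr_of_classInner_self hch
  rw [Core.classInner_character]
  have hfix : ∀ w : LinearMap.range π, π w = w := by
    rintro ⟨_, v, rfl⟩
    exact LinearMap.congr_fun h1 v
  -- the dimension is at most one
  have hle : finrank ℂ (IntertwiningMap W.toRepresentation W.toRepresentation) ≤ 1 := by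
    let I : IntertwiningMap W.toRepresentation W.toRepresentation := ⟨LinearMap.id, fun g => rfl⟩
    refine finrank_le_one I fun φ => ?_
    let k : V →ₗ[ℂ] V := (LinearMap.range π).subtype ∘ₗ φ.toLinearMap ∘ₗ π.rangeRestrict
    have hk : ∀ v, k v = (φ.toLinearMap (π.rangeRestrict v) : LinearMap.range π) := fun v => rfl
    obtain ⟨a, ha⟩ := h3 k (fun g => by
      refine LinearMap.ext fun v => ?_
      have e1 : π.rangeRestrict (τ g v) = W.toRepresentation g (π.rangeRestrict v) :=
        Subtype.ext (LinearMap.congr_fun (h2 g) v).symm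
      have e2 := LinearMap.congr_fun (φ.isIntertwining' g) (π.rangeRestrict v)
      change τ g (k v) = k (τ g v)
      rw [hk, hk, e1]
      exact (congrArg Subtype.val e2).symm) (by
      refine LinearMap.ext fun v => ?_
      exact hfix _) (by
      refine LinearMap.ext fun v => ?_
      change k (π v) = k v
      rw [hk, hk]
      have e1 : π.rangeRestrict (π v) = π.rangeRestrict v := Subtype.ext (LinearMap.congr_fun h1 v)
      rw [e1])
    refine ⟨a, ?_⟩
    apply IntertwiningMap.ext
    refine LinearMap.ext fun w => ?_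
    apply Subtype.ext
    obtain ⟨w, v, rfl⟩ := w
    have e1 := LinearMap.congr_fun ha v
    have e2 : (⟨π v, v, rfl⟩ : LinearMap.range π) = π.rangeRestrict v := rfl
    change a • π v = (φ.toLinearMap (⟨π v, v, rfl⟩ : LinearMap.range π) : V)
    rw [e2, ← hk, e1]
    rfl
  -- and not zero
  have hne : finrank ℂ (IntertwiningMap W.toRepresentation W.toRepresentation) ≠ 0 := by
    intro h
    have e1 : classInner W.toRepresentation.character W.toRepresentation.character = 0 := by
      rw [Core.classInner_character, h, Nat.cast_zero]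
    have e2 := Core.classInner_self_eq_zero e1
    have e3 := congrFun e2 1
    rw [Representation.char_one] at e3
    have e4 : finrank ℂ (LinearMap.range π) = 0 := Nat.cast_eq_zero.1 (e3.trans rfl)
    apply h0
    rw [← LinearMap.range_eq_bot]
    exact Submodule.finrank_eq_zero.1 e4
  have h5 : finrank ℂ (IntertwiningMap W.toRepresentation W.toRepresentation) = 1 := by omega
  rw [h5, Nat.cast_one]

section perm

variable (G : Type u) [Group G] (N : Type v) [MulAction G N]

/-- the representation on functions -/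
def pr : Representation ℂ G (N → ℂ) where
  toFun g := { toFun := fun f v => f (g⁻¹ • v), map_add' := fun _ _ => rfl, map_smul' := fun _ _ => rfl }
  map_one' := by
    refine LinearMap.ext fun f => ?_
    ext v
    change f ((1 : G)⁻¹ • v) = f v
    rw [inv_one, one_smul]
  map_mul' x y := by
    refine LinearMap.ext fun f => ?_
    ext v
    change f ((x * y)⁻¹ • v) = f (y⁻¹ • x⁻¹ • v)
    rw [mul_inv_rev, mul_smul]

theorem pr_apply (g : G) (f : N → ℂ) (v : N) : pr G N g f v = f (g⁻¹ • v) := rfl

variable {N} [Fintype N] [DecidableEq N]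

/-- invariant kernels -/
def KInv (k : Matrix N N ℂ) : Prop := ∀ (g : G) (v w : N), k (g • v) (g • w) = k v w

variable {G}

theorem comm_iff (k : Matrix N N ℂ) : (∀ g, pr G N g * Matrix.toLin' k = Matrix.toLin' k * pr G N g) ↔ KInv G k := by
  have key : ∀ (g : G) (f : N → ℂ) (v : N), (pr G N g * Matrix.toLin' k) f v = ∑ w, k (g⁻¹ • v) w * f w := fun g f v => rfl
  have key' : ∀ (g : G) (f : N → ℂ) (v : N), (Matrix.toLin' k * pr G N g) f v = ∑ w, k v (g • w) * f w := by
    intro g f v
    have e1 : (Matrix.toLin' k * pr G N g) f v = ∑ w, k v w * f (g⁻¹ • w) := rfl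
    rw [e1]
    refine (Fintype.sum_equiv (MulAction.toPerm g) _ _ fun w => ?_).symm
    rw [MulAction.toPerm_apply, inv_smul_smul]
  constructor
  · intro h g v w
    have h1 := congrFun (LinearMap.congr_fun (h g) (Pi.single w 1)) (g • v)
    rw [key, key'] at h1
    simp only [inv_smul_smul, Pi.single_apply, mul_ite, mul_one, mul_zero, Finset.sum_ite_eq', Finset.mem_univ,
      if_true] at h1
    exact h1.symm
  · intro h g
    refine LinearMap.ext fun f => ?_
    ext v
    rw [key, key']
    refine Finset.sum_congr rfl fun w _ => ?_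
    have := h g⁻¹ v (g • w)
    rw [inv_smul_smul] at this
    rw [this]

theorem KInv.smul {k : Matrix N N ℂ} (h : KInv G k) (a : ℂ) : KInv G (a • k) := fun g v w => by
  rw [Matrix.smul_apply, Matrix.smul_apply, h]

theorem KInv.add {k l : Matrix N N ℂ} (h : KInv G k) (h' : KInv G l) : KInv G (k + l) := fun g v w => by
  rw [Matrix.add_apply, Matrix.add_apply, h, h']

theorem KInv.sub {k l : Matrix N N ℂ} (h : KInv G k) (h' : KInv G l) : KInv G (k - l) := fun g v w => by
  rw [Matrix.sub_apply, Matrix.sub_apply, h, h']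

theorem KInv.mul {k l : Matrix N N ℂ} (h : KInv G k) (h' : KInv G l) : KInv G (k * l) := fun g v w => by
  rw [Matrix.mul_apply, Matrix.mul_apply]
  refine (Fintype.sum_equiv (MulAction.toPerm g) _ _ fun u => ?_).symm
  rw [MulAction.toPerm_apply, h, h']

/-- **one constituent** -/
theorem exists_one [Finite G] {E T : Matrix N N ℂ} (hE : KInv G E) (hT : KInv G T) (hEE : E * E = E) (hET : E * T = T)
    (hTE : T * E = T) {lam mu : ℂ} (hTT : T * T = (lam + mu) • T - (lam * mu) • E) (hne : lam ≠ mu)
    (hcom : ∀ k : Matrix N N ℂ, KInv G k → E * k = k → k * E = k → ∃ a b : ℂ, k = a • E + b • T)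
    (h0 : Matrix.trace T - mu * Matrix.trace E ≠ 0) :
    ∃ χ : G → ℂ, IsIrrCharacter G χ ∧ (lam - mu) * χ 1 = Matrix.trace T - mu * Matrix.trace E ∧
      ∀ (z : G) (c : ℂ), pr G N z * Matrix.toLin' E = c • Matrix.toLin' E → χ z = c * χ 1 := by
  have hlm : lam - mu ≠ 0 := sub_ne_zero.2 hne
  obtain ⟨P, hP⟩ : ∃ P, P = (lam - mu)⁻¹ • (T - mu • E) := ⟨_, rfl⟩
  have hPE : P * E = P := by rw [hP, Matrix.smul_mul, Matrix.sub_mul, Matrix.smul_mul, hTE, hEE]
  have hEP : E * P = P := by rw [hP, Matrix.mul_smul, Matrix.mul_sub, Matrix.mul_smul, hET, hEE]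
  have hTT' : T * T - mu • T = lam • (T - mu • E) := by
    rw [hTT]
    module
  have hPT : P * T = lam • P := by
    rw [hP, Matrix.smul_mul, Matrix.sub_mul, Matrix.smul_mul, hET, hTT', smul_comm]
  have hPP : P * P = P := by
    have e1 : P * P = (lam - mu)⁻¹ • (P * T - mu • (P * E)) := by
      conv_lhs => rw [hP]
      rw [Matrix.mul_smul, ← hP, Matrix.mul_sub, Matrix.mul_smul]
    rw [e1, hPT, hPE, ← sub_smul, smul_smul, inv_mul_cancel₀ hlm, one_smul]
  have hPi : KInv G P := by
    rw [hP]
    exact (hT.sub (hE.smul mu)).smul _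
  have htr : (lam - mu) * Matrix.trace P = Matrix.trace T - mu * Matrix.trace E := by
    rw [hP, Matrix.trace_smul, Matrix.trace_sub, Matrix.trace_smul, smul_eq_mul, smul_eq_mul, ← mul_assoc,
      mul_inv_cancel₀ hlm, one_mul]
  have hP0 : P ≠ 0 := by
    intro h
    rw [h, Matrix.trace_zero, mul_zero] at htr
    exact h0 htr.symm
  have hirr := isIrr_idem (pr G N) (Matrix.toLin' P) (by
      change Matrix.toLin' P ∘ₗ Matrix.toLin' P = Matrix.toLin' P
      rw [← Matrix.toLin'_mul, hPP])
    ((comm_iff P).2 hPi) (by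
      intro h
      exact hP0 ((LinearEquiv.map_eq_zero_iff _).1 h)) (fun k hk1 hk2 hk3 => by
      obtain ⟨k, rfl⟩ := Matrix.toLin'.surjective k
      rw [comm_iff] at hk1
      have e2 : P * k = k := Matrix.toLin'.injective (by rw [Matrix.toLin'_mul]; exact hk2)
      have e3 : k * P = k := Matrix.toLin'.injective (by rw [Matrix.toLin'_mul]; exact hk3)
      obtain ⟨a, b, hab⟩ := hcom k hk1 (by rw [← e2, ← Matrix.mul_assoc, hEP]) (by rw [← e3, Matrix.mul_assoc, hPE])
      refine ⟨a + b * lam, ?_⟩
      rw [← map_smul]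
      congr 1
      conv_lhs => rw [← e2, hab, Matrix.mul_add, Matrix.mul_smul, Matrix.mul_smul, hPE, hPT]
      module)
  refine ⟨_, hirr, ?_, fun z c hz => ?_⟩
  · simp only [map_one, one_mul]
    rw [Matrix.trace_toLin'_eq]
    exact htr
  · have e1 : pr G N z * Matrix.toLin' P = c • Matrix.toLin' P := by
      rw [← hEP, Matrix.toLin'_mul]
      change pr G N z * (Matrix.toLin' E * Matrix.toLin' P) = c • (Matrix.toLin' E * Matrix.toLin' P)
      rw [← mul_assoc, hz, smul_mul_assoc]
    simp only [map_one, one_mul]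
    rw [e1, map_smul, smul_eq_mul]

end perm

end Cfsg.Agent.H539.Eight
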