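import Cfsg.Agent.H539.Eight.SgnModels
import Cfsg.Agent.H477.HC.NPO
import Cfsg.Agent.H664.Eight.Base
import Cfsg.Agent.Nodes.RGDOrth
import Cfsg.Agent.H167.SteinbergRGD

/-!
# `PΩ_{2m+1}(q)`, `q` odd, `m ≥ 3`, has at least eight character degrees (helper539)

The degrees: `1`, Steinberg, the two rank 3 characters, the two constituents of the quadratic character induced from
the point stabiliser of `O(V)`, and two Harish-Chandra induced cuspidal characters of `GL_m`, `GL_(m-1)`.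
-/

set_option autoImplicit false
set_option linter.unusedSectionVars false

open scoped ComplexConjugate
open Cfsg

namespace Cfsg.Agent.H539.Eight

open Cfsg.Agent.Characters Module Cfsg.Agent.H477.HC Cfsg.Agent.H477.HC.CForm Cfsg.Agent.H664.Eight

universe u v w

/-! ### arithmetic -/

theorem arith_g {q x g : ℤ} (hq : 3 ≤ q) (hx : q ^ 2 ≤ x) (hg : (q ^ 2 - 1) * g = q ^ 2 * x ^ 2 - 1) : 4 < g := by
  have hx9 : 9 ≤ x := by nlinarith
  have h1 : 9 ≤ q ^ 2 := by nlinarith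
  have h2 : 81 ≤ x ^ 2 := by nlinarith
  by_contra h
  have h3 : (q ^ 2 - 1) * g ≤ (q ^ 2 - 1) * 4 := mul_le_mul_of_nonneg_left (not_lt.1 h) (by linarith)
  nlinarith

theorem arith_D1 {q x g P D1 : ℤ} (hq : 3 ≤ q) (hx : q ^ 2 ≤ x) (hP : 1 ≤ P)
    (hg : (q ^ 2 - 1) * g = q ^ 2 * x ^ 2 - 1) (hD1 : D1 = P * (x + 1) * (q ^ 2 * x ^ 2 - 1)) : 4 * g < D1 := by
  have hx9 : 9 ≤ x := by nlinarith
  have h1 : 9 ≤ q ^ 2 := by nlinarith
  have hg4 := arith_g hq hx hg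
  have h2 : 8 * g ≤ (q ^ 2 - 1) * g := mul_le_mul_of_nonneg_right (by linarith) (by linarith)
  have h3 : 1 ≤ P * (x + 1) := by nlinarith
  rw [hD1, ← hg]
  have h4 : 1 * ((q ^ 2 - 1) * g) ≤ P * (x + 1) * ((q ^ 2 - 1) * g) := mul_le_mul_of_nonneg_right h3 (by linarith)
  linarith

theorem arith_Dm {q x P D1 Dm : ℤ} (hq : 3 ≤ q) (hx : q ^ 2 ≤ x) (hP : 1 ≤ P)
    (hD1 : D1 = P * (x + 1) * (q ^ 2 * x ^ 2 - 1)) (hDm : Dm = (q ^ 2 - 1) * P * (x ^ 2 - 1) * (q * x + 1)) :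
    D1 ≤ Dm := by
  have hx9 : 9 ≤ x := by nlinarith
  have h0 : q + 5 ≤ q ^ 2 - 1 := by nlinarith
  have h0' : (q + 5) * (x - 1) ≤ (q ^ 2 - 1) * (x - 1) := mul_le_mul_of_nonneg_right h0 (by linarith)
  have h0'' : q ≤ x := by nlinarith
  have h1 : q * x - 1 ≤ (q ^ 2 - 1) * (x - 1) := by nlinarith
  have h2 : 0 ≤ P * (x + 1) * (q * x + 1) := by positivity
  have h3 := mul_le_mul_of_nonneg_left h1 h2
  have e1 : D1 = P * (x + 1) * (q * x + 1) * (q * x - 1) := by rw [hD1]; ring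
  have e2 : Dm = P * (x + 1) * (q * x + 1) * ((q ^ 2 - 1) * (x - 1)) := by rw [hDm]; ring
  rw [e1, e2]
  exact h3

theorem arith_ne {q x P D1 Dm z w y : ℤ} (hq : q = 3 ∨ 5 ≤ q) (hx : q ^ 2 ≤ x) (hP : 1 ≤ P)
    (hD1 : D1 = P * (x + 1) * (q ^ 2 * x ^ 2 - 1)) (hDm : Dm = (q ^ 2 - 1) * P * (x ^ 2 - 1) * (q * x + 1))
    (h1 : Dm = z * w) (h2 : D1 = z * y) (hw : w = 1 ∨ w = 2 ∨ w = 4) (hy : y = 1 ∨ y = 2 ∨ y = 4) : False := by
  have hq3 : 3 ≤ q := by omega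
  have hx9 : 9 ≤ x := by nlinarith
  have hqx : 0 < q * x + 1 := by positivity
  have hC : 0 < P * (x + 1) * (q * x + 1) := by positivity
  have e1 : P * (x + 1) * (q * x + 1) * (q * x - 1) = z * y := by rw [← h2, hD1]; ring
  have e2 : P * (x + 1) * (q * x + 1) * ((q ^ 2 - 1) * (x - 1)) = z * w := by rw [← h1, hDm]; ring
  have hz : z ≠ 0 := by
    rintro rfl
    rw [zero_mul] at e1
    have h3 : 0 < q * x - 1 := by nlinarith
    have := mul_pos hC h3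
    linarith
  have key : w * (q * x - 1) = y * ((q ^ 2 - 1) * (x - 1)) := by
    have h3 : (z * (P * (x + 1) * (q * x + 1))) * (w * (q * x - 1)) =
        (z * (P * (x + 1) * (q * x + 1))) * (y * ((q ^ 2 - 1) * (x - 1))) := by
      calc (z * (P * (x + 1) * (q * x + 1))) * (w * (q * x - 1)) =
            (z * w) * (P * (x + 1) * (q * x + 1) * (q * x - 1)) := by ring
        _ = (P * (x + 1) * (q * x + 1) * ((q ^ 2 - 1) * (x - 1))) * (z * y) := by rw [e1, e2]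
        _ = _ := by ring
    exact mul_left_cancel₀ (mul_ne_zero hz hC.ne') h3
  rcases hq with rfl | hq
  · rcases hw with rfl | rfl | rfl <;> rcases hy with rfl | rfl | rfl <;> omega
  · have h3 : w ≤ 4 := by omega
    have h4 : 1 ≤ y := by omega
    have h5 : 0 < q * x - 1 := by nlinarith
    have h6 : w * (q * x - 1) ≤ 4 * (q * x - 1) := mul_le_mul_of_nonneg_right h3 h5.le
    have h7 : 0 ≤ (q ^ 2 - 1) * (x - 1) := by nlinarith
    have h8 : 1 * ((q ^ 2 - 1) * (x - 1)) ≤ y * ((q ^ 2 - 1) * (x - 1)) := mul_le_mul_of_nonneg_right h4 h7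
    have h9 : 4 ≤ q ^ 2 - 4 * q - 1 := by nlinarith
    have h10 : 4 * x ≤ (q ^ 2 - 4 * q - 1) * x := mul_le_mul_of_nonneg_right h9 (by linarith)
    nlinarith

theorem arith_st {q x s t : ℤ} (hq : 3 ≤ q) (hs : 2 * (q - 1) * s = q * (x + 1) * (q * x - 1))
    (ht : 2 * (q - 1) * t = q * (x - 1) * (q * x + 1)) : s = t + q * x := by
  have h1 : 2 * (q - 1) ≠ 0 := by
    have : 0 < 2 * (q - 1) := by linarith
    exact this.ne'
  apply mul_left_cancel₀ h1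
  linear_combination hs - ht

theorem arith_B {q x s t B : ℤ} (hq : 3 ≤ q) (hx : q ^ 2 ≤ x) (hs : 2 * (q - 1) * s = q * (x + 1) * (q * x - 1))
    (ht : 2 * (q - 1) * t = q * (x - 1) * (q * x + 1)) (hB : (q ^ 2 - 1) * B = q * (q ^ 2 * x ^ 2 - 1)) :
    s < B ∧ B < 2 * t := by
  have hx9 : 9 ≤ x := by nlinarith
  have hqx : q < x := by nlinarith
  have hc : 0 < 2 * (q - 1) * (q + 1) := by nlinarith
  constructor
  · have h1 : 2 * (q - 1) * (q + 1) * (B - s) = q * (q * x - 1) * ((q - 1) * (x - 1)) := by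
      linear_combination 2 * hB - (q + 1) * hs
    have h2 : 0 < q * (q * x - 1) * ((q - 1) * (x - 1)) := by
      have h3 : 0 < q * x - 1 := by nlinarith
      have h4 : 0 < q - 1 := by linarith
      have h5 : 0 < x - 1 := by linarith
      positivity
    rw [← h1] at h2
    have := (mul_pos_iff_of_pos_left hc).1 h2
    linarith
  · have h1 : 2 * (q - 1) * (q + 1) * (2 * t - B) = 2 * q * (q * x + 1) * (x - q) := by
      linear_combination 2 * (q + 1) * ht - 2 * hB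
    have h2 : 0 < 2 * q * (q * x + 1) * (x - q) := by
      have h4 : 0 < x - q := by linarith
      positivity
    rw [← h1] at h2
    have := (mul_pos_iff_of_pos_left hc).1 h2
    linarith

theorem arith_St {q x s B : ℤ} (hq : 3 ≤ q) (hx : q ^ 2 ≤ x) (hs : 2 * (q - 1) * s = q * (x + 1) * (q * x - 1))
    (hs0 : 0 ≤ s) (hB0 : 0 ≤ B) (hB : (q ^ 2 - 1) * B = q * (q ^ 2 * x ^ 2 - 1)) :
    s < q ^ 3 * x ^ 3 ∧ B < q ^ 3 * x ^ 3 := by
  have hx9 : 9 ≤ x := by nlinarith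
  have h9 : 9 ≤ q ^ 2 := by nlinarith
  have h3x : 0 < q ^ 2 * x ^ 2 := by positivity
  have h27 : 27 ≤ q * x := by nlinarith
  have e3 : q ^ 3 * x ^ 3 = (q ^ 2 * x ^ 2) * (q * x) := by ring
  constructor
  · have h1 : s ≤ 2 * (q - 1) * s := by nlinarith
    have h2 : q * (x + 1) * (q * x - 1) ≤ 2 * (q ^ 2 * x ^ 2) := by nlinarith
    rw [e3]
    nlinarith
  · have h1 : B ≤ (q ^ 2 - 1) * B := by nlinarith
    have h2 : q * (q ^ 2 * x ^ 2 - 1) < q * (q ^ 2 * x ^ 2) := by nlinarith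
    have h4 : q * (q ^ 2 * x ^ 2) ≤ (q ^ 2 * x ^ 2) * (q * x) := by nlinarith
    rw [e3]
    linarith

/-! ### descent -/

theorem mem_of_ch {S : Type*} [Group S] {d : ℕ} (h : Ch S d) : d ∈ charDegrees S := by
  obtain ⟨χ, hχ⟩ := h.exists_irr
  exact ⟨χ, hχ⟩

theorem four_cases {t : ℕ} (h : t ∣ 4) : t = 1 ∨ t = 2 ∨ t = 4 := by
  have h1 := Nat.le_of_dvd (by norm_num) h
  interval_cases t <;> revert h <;> decide

section

variable (K : Type u) [Field K] [Finite K] {p : ℕ} [Fact p.Prime] [CharP K p]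

include p in
theorem down_odd (ho : Odd (Nat.card K)) (h2 : (2 : K) ≠ 0) {m : ℕ} (hm : 3 ≤ m) {χ : (oddF K m h2).iso → ℂ}
    (hχ : IsIrrCharacter (oddF K m h2).iso χ) {D : ℕ} (hD : χ 1 = D) :
    ∃ e t : ℕ, Ch (POmega K (quadFormOdd m K)) e ∧ D = e * t ∧ (t = 1 ∨ t = 2 ∨ t = 4) := by
  obtain ⟨hidx, hcen⟩ := odd_idx K (p := p) ho hm
  have hχ' : IsIrrCharacter _ (χ ∘ (isoQuad (oddF K m h2) (odd_hB K m h2)).toMonoidHom) :=
    Core.isIrr_comp _ (isoQuad (oddF K m h2) (odd_hB K m h2)).surjective hχ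
  have hD' : (χ ∘ (isoQuad (oddF K m h2) (odd_hB K m h2)).toMonoidHom) 1 = (D : ℂ) := by
    rw [Function.comp_apply, map_one, hD]
  obtain ⟨e, h1, h3, h4, h5⟩ := ch_down (Omega K (oddF K m h2).Q) hχ' hD' (fun z hz => by
    have := hcen z hz
    rw [this]
    rfl)
  change D / e ∣ (Omega K (quadFormOdd m K)).index at h4
  rw [hidx] at h4
  exact ⟨e, D / e, h1, (Nat.mul_div_cancel' h3).symm, four_cases h4⟩

/-- the Steinberg character -/
theorem st_odd (ho : Odd (Nat.card K)) {m : ℕ} (hm : 3 ≤ m) :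
    ∃ d, Ch (POmega K (quadFormOdd m K)) d ∧ Nat.card K ^ m ^ 2 ≤ d ∧ p ∣ d := by
  have hp : p.Prime := Fact.out
  have hp2 : p ≠ 2 := char_ne_two_of_odd (K := K) ho
  have hq : 1 < Nat.card K := Finite.one_lt_card
  let _ := Fintype.ofFinite K
  have hfin : Finite (POmega K (quadFormOdd m K)) := inferInstance
  obtain ⟨χ, hχ, h1⟩ := H167.SteinbergRGD.steinberg_of_hasRGD
    (Nodes.RGDOrth.hasRGD_odd K (hp.odd_of_ne_two hp2) (show 2 ≤ m by omega))
  have P : Sylow p (POmega K (quadFormOdd m K)) := default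
  obtain ⟨h3, -⟩ := h1 P
  obtain ⟨s, hs⟩ := card_pow K p
  have hs0 : s ≠ 0 := by
    rintro rfl
    rw [hs, pow_zero] at hq
    exact absurd hq (lt_irrefl 1)
  have h4 : 2 * Nat.card (POmega K (quadFormOdd m K)) =
      Nat.card K ^ (m ^ 2) * ∏ i ∈ Finset.range m, (Nat.card K ^ (2 * (i + 1)) - 1) := by
    rw [Nat.card_eq_fintype_card (α := K)] at ho ⊢
    exact Cfsg.Agent.S0292.result rfl ho m hm
  have h5 : p ^ (s * m ^ 2) ∣ Nat.card (POmega K (quadFormOdd m K)) := by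
    have h6 : p ^ (s * m ^ 2) ∣ 2 * Nat.card (POmega K (quadFormOdd m K)) := by
      rw [h4, hs, ← pow_mul]
      exact Dvd.intro _ rfl
    exact (Nat.Coprime.pow_left _ ((Nat.coprime_primes hp Nat.prime_two).2 hp2)).dvd_of_dvd_mul_left h6
  have h6 : Nat.card P = p ^ (Nat.card (POmega K (quadFormOdd m K))).factorization p := P.card_eq_multiplicity
  have h7 : s * m ^ 2 ≤ (Nat.card (POmega K (quadFormOdd m K))).factorization p :=
    (hp.pow_dvd_iff_le_factorization Nat.card_pos.ne').1 h5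
  refine ⟨Nat.card P, ⟨χ, hχ, h3⟩, ?_, ?_⟩
  · rw [h6, hs, ← pow_mul]
    exact Nat.pow_le_pow_right hp.pos h7
  · rw [h6]
    apply dvd_pow_self
    have : 0 < s * m ^ 2 := Nat.mul_pos (Nat.pos_of_ne_zero hs0) (pow_pos (by omega) 2)
    omega

omit [CharP K p] in
theorem not_dvd_prod (hpq : p ∣ Nat.card K) (s : Finset ℕ) :
    ¬ p ∣ ∏ i ∈ s, (Nat.card K ^ (2 * (i + 1)) - 1) := by
  have hp : p.Prime := Fact.out
  have hq : 1 < Nat.card K := Finite.one_lt_card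
  intro h
  obtain ⟨i, -, h1⟩ := (Prime.dvd_finsetProd_iff hp.prime _).1 h
  have h3 : p ∣ Nat.card K ^ (2 * (i + 1)) := hpq.trans (dvd_pow_self _ (by omega))
  have h4 : Nat.card K ^ (2 * (i + 1)) = (Nat.card K ^ (2 * (i + 1)) - 1) + 1 := by
    have := Nat.one_le_pow (2 * (i + 1)) (Nat.card K) (by omega)
    omega
  rw [h4] at h3
  exact hp.one_lt.ne' (Nat.dvd_one.1 ((Nat.dvd_add_right h1).1 h3))

end

theorem nodup_eight {P : ℕ → Prop} {a b c d e f g h : ℕ} (ha : ¬ P a) (hb : ¬ P b) (hc : ¬ P c) (hd : ¬ P d) (he : P e)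
    (hf : P f) (hg : P g) (hh : P h) (h1 : a < b) (h2 : b < c) (h3 : b < d) (h4 : c ≠ d) (h5 : e ≠ f) (h6 : e ≠ g)
    (h7 : e ≠ h) (h8 : f ≠ g) (h9 : f ≠ h) (h10 : g ≠ h) : [a, b, c, d, e, f, g, h].Nodup := by
  have key : ∀ {x y : ℕ}, ¬ P x → P y → x ≠ y := fun hx hy hxy => hx (hxy ▸ hy)
  have k1 : a ≠ b := h1.ne
  have k2 : a ≠ c := (h1.trans h2).ne
  have k3 : a ≠ d := (h1.trans h3).ne
  have k4 : b ≠ c := h2.ne
  have k5 : b ≠ d := h3.ne
  simp only [List.nodup_cons, List.mem_cons, List.not_mem_nil, or_false, not_or, List.nodup_nil, and_true,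
    not_false_eq_true]
  exact ⟨⟨k1, k2, k3, key ha he, key ha hf, key ha hg, key ha hh⟩, ⟨k4, k5, key hb he, key hb hf, key hb hg, key hb hh⟩,
    ⟨h4, key hc he, key hc hf, key hc hg, key hc hh⟩, ⟨key hd he, key hd hf, key hd hg, key hd hh⟩, ⟨h5, h6, h7⟩,
    ⟨h8, h9⟩, h10⟩

/-! ### the theorem -/

section main

variable (K : Type u) [Field K] [Finite K] {p : ℕ} [Fact p.Prime] [CharP K p]

include p in
theorem cus_odd (ho : Odd (Nat.card K)) (h2 : (2 : K) ≠ 0) {k n : ℕ} (hk : 2 ≤ k) (hm : 3 ≤ k + n) :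
    ∃ e t : ℕ, Ch (POmega K (quadFormOdd (k + n) K)) e ∧ dg (oddF K (k + n) h2) k = e * t ∧ (t = 1 ∨ t = 2 ∨ t = 4) := by
  have hq3 : 3 ≤ Nat.card K := by
    have : 1 < Nat.card K := Finite.one_lt_card
    rcases ho with ⟨j, hj⟩; omega
  obtain ⟨c, hc⟩ := exists_cus_one (K := K) rfl k (by omega) (by
    have : Nat.card K ^ 2 ≤ Nat.card K ^ k := Nat.pow_le_pow_right (by omega) hk
    nlinarith) (by rintro ⟨h3, -⟩; omega)
  obtain ⟨⟨W₀, hW₀⟩, -⟩ := CForm.oddF_frame (K := K) (p := p) h2 k n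
  obtain ⟨χ, hχ, hχ1, -⟩ := exists_char (oddF K (k + n) h2) hW₀ hc
  exact down_odd K (p := p) ho h2 hm hχ hχ1

include p in
theorem eight_aux (ho : Odd (Nat.card K)) (r : ℕ) : Eight (POmega K (quadFormOdd (r + 3) K)) := by
  have hp : p.Prime := Fact.out
  have h2 := two_ne_zero_of_odd (K := K) (p := p) ho
  have hp2 : p ≠ 2 := char_ne_two_of_odd (K := K) ho
  have hcard : 1 < Nat.card K := Finite.one_lt_card
  let _ := Fintype.ofFinite K
  have hfin : Finite (POmega K (quadFormOdd (r + 3) K)) := inferInstance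
  have hpq : p ∣ Nat.card K := by
    obtain ⟨s, hs⟩ := card_pow K p
    rw [hs]
    apply dvd_pow_self
    rintro rfl
    rw [hs, pow_zero] at hcard
    exact absurd hcard (lt_irrefl 1)
  obtain ⟨s, t, cs, ct, hs, ht⟩ := rk3_odd K h2 ho (show 3 ≤ r + 3 by omega)
  obtain ⟨⟨χa, a, hχa, ha1, ha⟩, ⟨χb, b, hχb, hb1, hb⟩⟩ := sgn_odd K h2 ho (show 1 ≤ r + 3 by omega)
  obtain ⟨g', u, cg, hg', hu⟩ := down_odd K (p := p) ho h2 (show 3 ≤ r + 3 by omega) hχa ha1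
  obtain ⟨B', v, cB, hB', hv⟩ := down_odd K (p := p) ho h2 (show 3 ≤ r + 3 by omega) hχb hb1
  obtain ⟨D1', y, cD1, hD1', hy⟩ := cus_odd K (p := p) ho h2 (k := r + 2) (n := 1) (by omega) (by omega)
  obtain ⟨Dm', w, cDm, hDm', hw⟩ := cus_odd K (p := p) ho h2 (k := r + 3) (n := 0) (by omega) (by omega)
  obtain ⟨St, cSt, hSt, hSt'⟩ := st_odd K (p := p) ho (show 3 ≤ r + 3 by omega)
  have hD1 := dg_odd K h2 ho (k := r + 2) (by omega) 1
  have hDm := dg_odd K h2 ho (k := r + 3) (by omega) 0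
  have hpD1 := not_dvd_prod K hpq (Finset.Ico 1 (r + 2 + 1))
  have hpDm := not_dvd_prod K hpq (Finset.Ico 0 (r + 3 + 0))
  rw [← hD1] at hpD1
  rw [← hDm] at hpDm
  obtain ⟨D1, hD1e⟩ : ∃ D1, D1 = dg (oddF K (r + 2 + 1) h2) (r + 2) := ⟨_, rfl⟩
  obtain ⟨Dm, hDme⟩ : ∃ Dm, Dm = dg (oddF K (r + 3 + 0) h2) (r + 3) := ⟨_, rfl⟩
  rw [← hD1e] at hD1' hD1 hpD1
  rw [← hDme] at hDm' hDm hpDm
  obtain ⟨P, hP⟩ : ∃ P, P = ∏ i ∈ Finset.Ico 1 (r + 1), (Nat.card K ^ (2 * (i + 1)) - 1) := ⟨_, rfl⟩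
  have hP1 : 0 < P := by
    rw [hP]
    apply Finset.prod_pos
    intro i _
    have : 1 < Nat.card K ^ (2 * (i + 1)) := Nat.one_lt_pow (by omega) hcard
    omega
  rw [show r + 2 + 1 = r + 1 + 1 + 1 by omega, Finset.prod_Ico_succ_top (by omega), Finset.prod_Ico_succ_top (by omega),
    ← hP] at hD1
  rw [show r + 3 + 0 = r + 1 + 1 + 1 by omega, Finset.prod_eq_prod_Ico_succ_bot (by omega),
    Finset.prod_Ico_succ_top (by omega), Finset.prod_Ico_succ_top (by omega), zero_add, ← hP] at hDm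
  obtain ⟨q, hq⟩ : ∃ q, q = Nat.card K := ⟨_, rfl⟩
  rw [← hq] at ha hb hs ht hD1 hDm ho hcard hpq hSt hpD1 hpDm
  have hq3 : q = 3 ∨ 5 ≤ q := by
    rcases ho with ⟨i, hi⟩
    omega
  have cst : ∀ n : ℕ, ((q ^ n - 1 : ℕ) : ℤ) = (q : ℤ) ^ n - 1 := fun n => by
    rw [Nat.cast_sub (Nat.one_le_pow _ _ (by omega)), Nat.cast_pow, Nat.cast_one]
  obtain ⟨x, hx⟩ : ∃ x : ℕ, x = q ^ (r + 2) := ⟨_, rfl⟩
  have hxZ : (x : ℤ) = (q : ℤ) ^ (r + 2) := by rw [hx, Nat.cast_pow]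
  have hxq : q ^ 2 ≤ x := by
    rw [hx]
    exact Nat.pow_le_pow_right (by omega) (by omega)
  have e1 : (q : ℤ) ^ (2 * (r + 3)) = (q : ℤ) ^ 2 * (x : ℤ) ^ 2 := by rw [hxZ]; ring
  have e2 : (q : ℤ) ^ (2 * (r + 1 + 1)) = (x : ℤ) ^ 2 := by rw [hxZ]; ring
  have e3 : (q : ℤ) ^ (2 * (r + 1 + 1 + 1)) = (q : ℤ) ^ 2 * (x : ℤ) ^ 2 := by rw [hxZ]; ring
  have e4 : (q : ℤ) ^ (r + 3) = (q : ℤ) * x := by rw [hxZ]; ring
  -- integer equations
  have hqZ : (3 : ℤ) ≤ q := by exact_mod_cast (by omega : 3 ≤ q)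
  have hqZ' : (q : ℤ) = 3 ∨ (5 : ℤ) ≤ q := by
    rcases hq3 with h | h
    · left; exact_mod_cast h
    · right; exact_mod_cast h
  have hxqZ : (q : ℤ) ^ 2 ≤ x := by exact_mod_cast hxq
  have hx9 : (9 : ℤ) ≤ x := by nlinarith
  have hPZ : (1 : ℤ) ≤ P := by exact_mod_cast hP1
  have haZ : ((q : ℤ) ^ 2 - 1) * a = (q : ℤ) ^ 2 * (x : ℤ) ^ 2 - 1 := by
    have := congrArg (Nat.cast : ℕ → ℤ) ha
    rwa [Nat.cast_mul, cst, cst, e1] at this
  have hbZ : ((q : ℤ) ^ 2 - 1) * b = q * ((q : ℤ) ^ 2 * (x : ℤ) ^ 2 - 1) := by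
    have := congrArg (Nat.cast : ℕ → ℤ) hb
    rwa [Nat.cast_mul, Nat.cast_mul, cst, cst, e1] at this
  have hsZ : 2 * ((q : ℤ) - 1) * s = q * ((x : ℤ) + 1) * (q * x - 1) := by
    rw [show r + 3 - 1 = r + 2 by omega, ← hxZ, e4] at hs
    exact hs
  have htZ : 2 * ((q : ℤ) - 1) * t = q * ((x : ℤ) - 1) * (q * x + 1) := by
    rw [show r + 3 - 1 = r + 2 by omega, ← hxZ, e4] at ht
    exact ht
  have hD1Z : (D1 : ℤ) = P * ((x : ℤ) + 1) * ((q : ℤ) ^ 2 * (x : ℤ) ^ 2 - 1) := by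
    have := congrArg (Nat.cast : ℕ → ℤ) hD1
    rw [Nat.cast_mul, Nat.cast_mul, Nat.cast_mul, cst, cst, cst, e2, e3, ← hxZ] at this
    have h3 : (x : ℤ) - 1 ≠ 0 := by
      have : (0 : ℤ) < x - 1 := by linarith
      exact this.ne'
    apply mul_right_cancel₀ h3
    rw [this]
    ring
  have hDmZ : (Dm : ℤ) = ((q : ℤ) ^ 2 - 1) * P * ((x : ℤ) ^ 2 - 1) * (q * x + 1) := by
    have := congrArg (Nat.cast : ℕ → ℤ) hDm
    rw [Nat.cast_mul, Nat.cast_mul, Nat.cast_mul, Nat.cast_mul, cst, cst, cst, cst, e2, e3, e4] at this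
    have h3 : (q : ℤ) * x - 1 ≠ 0 := by
      have : (0 : ℤ) < q * x - 1 := by nlinarith
      exact this.ne'
    apply mul_right_cancel₀ h3
    rw [this]
    ring
  -- inequalities
  have i1 := arith_g hqZ hxqZ haZ
  have i2 := arith_D1 hqZ hxqZ hPZ haZ hD1Z
  have i3 := arith_Dm hqZ hxqZ hPZ hD1Z hDmZ
  have i4 := arith_st hqZ hsZ htZ
  obtain ⟨i5, i6⟩ := arith_B hqZ hxqZ hsZ htZ hbZ
  obtain ⟨i7, i8⟩ := arith_St hqZ hxqZ hsZ (Int.natCast_nonneg s) (Int.natCast_nonneg b) hbZ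
  have i9 : q ^ 3 * x ^ 3 ≤ St := by
    refine le_trans ?_ hSt
    have : q ^ 3 * x ^ 3 = q ^ (3 * (r + 3)) := by rw [hx]; ring
    rw [this]
    refine Nat.pow_le_pow_right (by omega) ?_
    nlinarith
  have j1 : 4 < a := by exact_mod_cast i1
  have j2 : 4 * a < D1 := by exact_mod_cast i2
  have j3 : D1 ≤ Dm := by exact_mod_cast i3
  have j4 : s = t + q * x := by exact_mod_cast i4
  have j5 : s < b := by exact_mod_cast i5
  have j6 : b < 2 * t := by exact_mod_cast i6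
  have j7 : s < q ^ 3 * x ^ 3 := by exact_mod_cast i7
  have j8 : b < q ^ 3 * x ^ 3 := by exact_mod_cast i8
  have j9 : 0 < q * x := by
    have : 0 < x := by exact_mod_cast (by linarith : (0 : ℤ) < x)
    exact Nat.mul_pos (by omega) this
  have k1 : 1 < g' := by rcases hu with rfl | rfl | rfl <;> omega
  have k2 : g' ≤ a := by rcases hu with rfl | rfl | rfl <;> omega
  have k3 : g' < D1' := by rcases hy with rfl | rfl | rfl <;> omega
  have k4 : g' < Dm' := by rcases hw with rfl | rfl | rfl <;> omega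
  have k5 : D1' ≠ Dm' := by
    rintro rfl
    have h3 : (Dm : ℤ) = D1' * w := by exact_mod_cast hDm'
    have h4 : (D1 : ℤ) = D1' * y := by exact_mod_cast hD1'
    exact arith_ne hqZ' hxqZ hPZ hD1Z hDmZ h3 h4 (by rcases hw with rfl | rfl | rfl <;> simp)
      (by rcases hy with rfl | rfl | rfl <;> simp)
  -- divisibility
  have hpodd : ∀ {n l : ℕ}, (l = 1 ∨ l = 2 ∨ l = 4) → p ∣ n * l → p ∣ n := by
    intro n l hl h
    rcases hp.dvd_mul.1 h with h1 | h1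
    · exact h1
    · exfalso
      have h3 : p ∣ 2 ^ 2 := h1.trans (by rcases hl with rfl | rfl | rfl <;> norm_num)
      exact hp2 ((Nat.prime_dvd_prime_iff_eq hp Nat.prime_two).1 (hp.dvd_of_dvd_pow h3))
  have hpq1 : ¬ (p : ℤ) ∣ (q : ℤ) - 1 := by
    intro h
    have h3 : (p : ℤ) ∣ 1 := by
      have h4 : (p : ℤ) ∣ q := Int.natCast_dvd_natCast.2 hpq
      have := dvd_sub h4 h
      simpa using this
    exact hp.one_lt.ne' (Nat.dvd_one.1 (by exact_mod_cast h3))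
  have hp2Z : ¬ (p : ℤ) ∣ 2 := by
    intro h
    exact hp2 ((Nat.prime_dvd_prime_iff_eq hp Nat.prime_two).1 (by exact_mod_cast h))
  have hpZ : Prime (p : ℤ) := Nat.prime_iff_prime_int.1 hp
  have hpqZ : (p : ℤ) ∣ q := Int.natCast_dvd_natCast.2 hpq
  have l1 : ¬ p ∣ 1 := fun h => hp.one_lt.ne' (Nat.dvd_one.1 h)
  have l2 : ¬ p ∣ g' := by
    intro h
    have h3 : (p : ℤ) ∣ a := Int.natCast_dvd_natCast.2 (hg' ▸ Dvd.dvd.mul_right h u)
    have h4 : (p : ℤ) ∣ 1 := by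
      have h5 : (p : ℤ) ∣ ((q : ℤ) ^ 2 - 1) * a := Dvd.dvd.mul_left h3 _
      rw [haZ] at h5
      have h6 : (p : ℤ) ∣ (q : ℤ) ^ 2 * (x : ℤ) ^ 2 := Dvd.dvd.mul_right (dvd_pow hpqZ two_ne_zero) _
      have := dvd_sub h6 h5
      simpa using this
    exact hp.one_lt.ne' (Nat.dvd_one.1 (by exact_mod_cast h4))
  have l3 : ¬ p ∣ D1' := fun h => hpD1 (Dvd.dvd.mul_right (hD1' ▸ Dvd.dvd.mul_right h y) _)
  have l4 : ¬ p ∣ Dm' := fun h => hpDm (Dvd.dvd.mul_right (hDm' ▸ Dvd.dvd.mul_right h w) _)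
  have l5 : p ∣ t := by
    have h3 : (p : ℤ) ∣ 2 * ((q : ℤ) - 1) * t := by
      rw [htZ]
      exact Dvd.dvd.mul_right (Dvd.dvd.mul_right hpqZ _) _
    rcases hpZ.dvd_mul.1 h3 with h4 | h4
    · rcases hpZ.dvd_mul.1 h4 with h5 | h5
      · exact absurd h5 hp2Z
      · exact absurd h5 hpq1
    · exact Int.natCast_dvd_natCast.1 h4
  have l6 : p ∣ s := by
    rw [j4]
    exact dvd_add l5 (Dvd.dvd.mul_right hpq x)
  have l7 : p ∣ B' := by
    apply hpodd hv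
    rw [← hB']
    have h3 : (p : ℤ) ∣ ((q : ℤ) ^ 2 - 1) * b := by
      rw [hbZ]
      exact Dvd.dvd.mul_right hpqZ _
    rcases hpZ.dvd_mul.1 h3 with h4 | h4
    · exfalso
      have h5 : (p : ℤ) ∣ 1 := by
        have := dvd_sub (dvd_pow hpqZ two_ne_zero) h4
        simpa using this
      exact hp.one_lt.ne' (Nat.dvd_one.1 (by exact_mod_cast h5))
    · exact Int.natCast_dvd_natCast.1 h4
  refine eight_of_list [1, g', D1', Dm', t, s, B', St] (nodup_eight (P := fun n => p ∣ n) l1 l2 l3 l4 l5 l6 l7 hSt' k1 k3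
    k4 k5 (by omega) ?_ ?_ ?_ ?_ ?_) (le_refl 8) ?_
  · rcases hv with rfl | rfl | rfl <;> omega
  · omega
  · rcases hv with rfl | rfl | rfl <;> omega
  · omega
  · rcases hv with rfl | rfl | rfl <;> omega
  · intro d hd
    simp only [List.mem_cons, List.not_mem_nil, or_false] at hd
    rcases hd with rfl | rfl | rfl | rfl | rfl | rfl | rfl | rfl
    · exact one_mem
    · exact mem_of_ch cg
    · exact mem_of_ch cD1
    · exact mem_of_ch cDm
    · exact mem_of_ch ct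
    · exact mem_of_ch cs
    · exact mem_of_ch cB
    · exact mem_of_ch cSt

end main

/-- **`PΩ_{2m+1}(q)` has at least eight character degrees** -/
theorem eight_oo {F : Type u} [Field F] [Fintype F] (ho : Odd (Fintype.card F)) {m : ℕ} (hm : 3 ≤ m) :
    Eight (POmega F (quadFormOdd m F)) := by
  obtain ⟨p, hp⟩ := CharP.exists F
  have hpr : p.Prime := (CharP.char_is_prime_or_zero F p).resolve_right (CharP.char_ne_zero_of_finite F p)
  have : Fact p.Prime := ⟨hpr⟩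
  obtain ⟨r, rfl⟩ : ∃ r, m = r + 3 := ⟨m - 3, by omega⟩
  exact eight_aux F (p := p) (by rwa [Nat.card_eq_fintype_card]) r

theorem eight_isPOmegaOdd {S : Type v} [Group S] (h : IsPOmegaOdd S) : Eight S := by
  obtain ⟨F, _, _, m, hm, ho, ⟨e⟩⟩ := h
  exact Eight.of_equiv e (eight_oo ho hm)

end Cfsg.Agent.H539.Eight
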