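import Cfsg.Agent.H539.Eight.Ker
import Cfsg.Agent.H539.Eight.Cnt
import Mathlib.NumberTheory.LegendreSymbol.QuadraticChar.Basic

/-!
# The constituents of the quadratic character induced from a point stabiliser (helper539)

`F : CForm K V` a quadratic form in odd characteristic. The functions `f` on the nonzero singular vectors with
`f(cv) = η(c) f(v)`, `η` the quadratic character, form a module for `F.iso` with commutant of dimension `2`.

`exists_sgn` : if `λ + μ = ∑ x, η(-Q'(x))`, `λ μ = -|X|`, `λ ≠ μ` then there is an irreducible character `χ` with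
`(λ - μ) χ(1) (q - 1) = -μ |N|`.
-/

set_option autoImplicit false
set_option linter.unusedSectionVars false

open scoped ComplexConjugate
open Cfsg

namespace Cfsg.Agent.H539.Eight

open Cfsg.Agent.Characters Module Cfsg.Agent.H477.HC Cfsg.Agent.H477.HC.CForm

universe u v w

section trans

variable {K : Type u} [Field K] {V : Type v} [AddCommGroup V] [Module K V] (F : CForm K V)

/-- transitive on the singular vectors -/
theorem trans_vec [FiniteDimensional K V] {v w : V} (hv0 : v ≠ 0) (hv : F.Sing v) (hw0 : w ≠ 0) (hw : F.Sing w) :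
    ∃ g : F.iso, (g : V ≃ₗ[K] V) v = w := by
  obtain ⟨g, hg⟩ := F.trans_Om (F.pt v hv0 hv).2 (F.pt w hw0 hw).2
  have hg' : g • F.pt v hv0 hv = F.pt w hw0 hw := Subtype.ext hg
  rw [F.smul_pt, F.pt_eq_iff] at hg'
  obtain ⟨c, hc, hc'⟩ := hg'
  obtain ⟨k, hk⟩ := F.exists_levi' (F.TS_span_singleton hw)
    (LinearEquiv.smulOfNeZero K (Submodule.span K {w}) c⁻¹ (inv_ne_zero hc))
  refine ⟨k * g, ?_⟩
  change (k : V ≃ₗ[K] V) ((g : V ≃ₗ[K] V) v) = w
  rw [hc', hk ⟨c • w, Submodule.smul_mem _ _ (Submodule.mem_span_singleton_self w)⟩]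
  change c⁻¹ • (c • w) = w
  rw [smul_smul, inv_mul_cancel₀ hc, one_smul]

/-- transitive on the hyperbolic pairs -/
theorem trans_pair [FiniteDimensional K V] {e f v w : V} (he0 : e ≠ 0) (he : F.Sing e) (hf : F.Sing f) (hef : F.B e f = 1)
    (hv0 : v ≠ 0) (hv : F.Sing v) (hw : F.Sing w) (hvw : F.B v w = 1) :
    ∃ g : F.iso, (g : V ≃ₗ[K] V) e = v ∧ (g : V ≃ₗ[K] V) f = w := by
  obtain ⟨g, hg⟩ := trans_vec F he0 he hv0 hv
  have h1 : (g : V ≃ₗ[K] V) (((g⁻¹ : F.iso) : V ≃ₗ[K] V) w) = w := (g : V ≃ₗ[K] V).apply_symm_apply w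
  have h2 : F.B e (((g⁻¹ : F.iso) : V ≃ₗ[K] V) w) = 1 := by
    rw [← F.iso_B g, h1, hg, hvw]
  obtain ⟨k, hk1, hk2⟩ := F.trans_hyp he hf (F.sing_map g⁻¹ hw) hef h2
  refine ⟨g * k, ?_, ?_⟩
  · change (g : V ≃ₗ[K] V) ((k : V ≃ₗ[K] V) e) = v
    rw [hk1, hg]
  · change (g : V ≃ₗ[K] V) ((k : V ≃ₗ[K] V) f) = w
    rw [hk2, h1]

/-- scaling the second vector -/
theorem trans_scale [FiniteDimensional K V] {v w : V} (hv0 : v ≠ 0) (hv : F.Sing v) (hw0 : w ≠ 0) (hw : F.Sing w)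
    (hvw : F.B v w = 0) (hne : ∀ c : K, w ≠ c • v) (c : Kˣ) :
    ∃ g : F.iso, (g : V ≃ₗ[K] V) v = v ∧ (g : V ≃ₗ[K] V) w = (c : K) • w := by
  classical
  have hwv := F.B_eq_zero hvw
  have hli : LinearIndependent K ![v, w] := by
    rw [LinearIndependent.pair_iff' hv0]
    exact fun a ha => hne a ha.symm
  have hTS : F.TS (Submodule.span K (Set.range ![v, w])) := by
    refine F.TS_span (fun i j => ?_) (fun i => ?_)
    · fin_cases i <;> fin_cases j
      · exact hv.2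
      · exact hvw
      · exact hwv
      · exact hw.2
    · fin_cases i
      · exact hv.1
      · exact hw.1
  let b1 : Basis (Fin 2) K (Submodule.span K (Set.range ![v, w])) := Basis.span hli
  have hb1 : ∀ i, ((b1 i : Submodule.span K (Set.range ![v, w])) : V) = ![v, w] i := fun i => by
    change ((Basis.span hli) i : V) = _
    rw [Basis.span_apply]
  obtain ⟨g, hg⟩ := F.exists_levi' hTS (b1.equiv (b1.unitsSMul ![1, c]) (Equiv.refl _))
  have hg' : ∀ i, (g : V ≃ₗ[K] V) (![v, w] i) = (((![1, c] : Fin 2 → Kˣ) i : Kˣ) : K) • (![v, w] i) := by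
    intro i
    rw [← hb1, hg, Basis.equiv_apply, Equiv.refl_apply, Basis.unitsSMul_apply]
    rfl
  refine ⟨g, ?_, hg' 1⟩
  have := hg' 0
  simp only [Matrix.cons_val_zero, Units.val_one, one_smul] at this
  exact this

end trans

/-! ### the quadratic character -/

section qc

variable {K : Type u} [Field K] [Fintype K] [DecidableEq K]

/-- the quadratic character with complex values -/
noncomputable def qc (x : K) : ℂ := ((quadraticChar K x : ℤ) : ℂ)

theorem qc_mul (x y : K) : qc (x * y) = qc x * qc y := by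
  unfold qc
  rw [map_mul, Int.cast_mul]

theorem qc_zero : qc (0 : K) = 0 := by
  unfold qc
  rw [quadraticChar_zero, Int.cast_zero]

theorem qc_one : qc (1 : K) = 1 := by
  unfold qc
  rw [map_one, Int.cast_one]

theorem qc_sq {x : K} (hx : x ≠ 0) : qc x * qc x = 1 := by
  have h := quadraticChar_sq_one hx
  unfold qc
  rw [← Int.cast_mul, ← pow_two, h, Int.cast_one]

theorem qc_ne {x : K} (hx : x ≠ 0) : qc x ≠ 0 := fun h => by
  have := qc_sq hx
  rw [h, mul_zero] at this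
  exact zero_ne_one this

theorem qc_inv {x : K} (hx : x ≠ 0) : qc x⁻¹ = qc x := by
  have h1 : qc x * qc x⁻¹ = 1 := by rw [← qc_mul, mul_inv_cancel₀ hx, qc_one]
  have h2 := qc_sq hx
  exact mul_left_cancel₀ (qc_ne hx) (h1.trans h2.symm)

theorem rc_ne (h2 : (2 : K) ≠ 0) : ringChar K ≠ 2 := fun h => h2 (by
  have h1 := ringChar.Nat.cast_ringChar (R := K)
  rw [h] at h1
  exact_mod_cast h1)

theorem qc_sum (h2 : (2 : K) ≠ 0) : ∑ x : K, qc x = 0 := by
  have h := quadraticChar_sum_zero (F := K) (rc_ne h2)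
  unfold qc
  rw [← Int.cast_sum, h, Int.cast_zero]

theorem exists_qc_neg (h2 : (2 : K) ≠ 0) : ∃ c : Kˣ, qc (c : K) = -1 := by
  obtain ⟨a, ha⟩ := quadraticChar_exists_neg_one (F := K) (rc_ne h2)
  have ha0 : a ≠ 0 := by
    rintro rfl
    rw [quadraticChar_zero] at ha
    exact absurd ha (by norm_num)
  refine ⟨Units.mk0 a ha0, ?_⟩
  unfold qc
  rw [Units.val_mk0, ha]
  norm_num

theorem qc_neg_one_sq : qc (-1 : K) * qc (-1 : K) = 1 := by
  rw [← qc_mul]
  norm_num [qc_one]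

end qc

/-! ### the character sums -/

section hyp

variable {K : Type u} [Field K] {V : Type v} [AddCommGroup V] [Module K V] {F : CForm K V}
  {X : Type w} [AddCommGroup X] [Module K X] {F' : CForm K X} {e f : V} {j : X →ₗ[K] V}

/-- the form is quadratic -/
structure IsQ (F : CForm K V) : Prop where
  hσ : ∀ x, F.σ x = x
  hε : F.ε = 1
  hT : ∀ x, F.T x = x

theorem IsQ.symm (h : IsQ F) (u v : V) : F.B u v = F.B v u := by
  rw [F.B_symm, h.hε, h.hσ, one_mul]

theorem Q_par (h : Hyp F F' e f j) (hQ : IsQ F) (a b : K) (x : X) : F.Q (a • e + b • f + j x) = a * b + F'.Q x := by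
  have h1 := F.B_eq_zero (h.hje x)
  have h3 := F.B_eq_zero (h.hjf x)
  rw [F.Q_add, F.Q_add, F.Q_smul, F.Q_smul, h.he.1, h.hf.1, hQ.hT, hQ.hT, F.B_add_left, F.B_smul_left,
    F.B_smul_right, F.B_smul_left, F.B_smul_left, h1, h3, h.hef, hQ.hσ, hQ.hσ, h.hjQ]
  ring

theorem B_e_par (h : Hyp F F' e f j) (hQ : IsQ F) (a b : K) (x : X) : F.B e (a • e + b • f + j x) = b := by
  rw [F.B_add_right, F.B_add_right, F.B_smul_right, F.B_smul_right, h.he.2, h.hef, F.B_eq_zero (h.hje x), hQ.hσ, hQ.hσ]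
  ring

theorem B_par_f (h : Hyp F F' e f j) (a b : K) (x : X) : F.B (a • e + b • f + j x) f = a := by
  rw [F.B_add_left, F.B_add_left, F.B_smul_left, F.B_smul_left, h.hf.2, h.hef, h.hjf]
  ring

theorem par_inj (h : Hyp F F' e f j) (hQ : IsQ F) {a b a' b' : K} {x x' : X}
    (he : a • e + b • f + j x = a' • e + b' • f + j x') : a = a' ∧ b = b' ∧ x = x' := by
  have h1 := B_e_par h hQ a b x
  have h3 := B_par_f h a b x
  rw [he, B_e_par h hQ] at h1
  rw [he, B_par_f h] at h3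
  subst h1 h3
  exact ⟨rfl, rfl, h.inj (add_left_cancel he)⟩

theorem exists_par (h : Hyp F F' e f j) (hQ : IsQ F) (v : V) : ∃ x, v = F.B v f • e + F.B v e • f + j x := by
  obtain ⟨x, hx⟩ := h.dec (v - F.B v f • e - F.B v e • f)
    (by
      rw [F.B_sub_left, F.B_sub_left, F.B_smul_left, F.B_smul_left, h.he.2, h.hfe, hQ.hε]
      ring)
    (by
      rw [F.B_sub_left, F.B_sub_left, F.B_smul_left, F.B_smul_left, h.hf.2, h.hef]
      ring)
  exact ⟨x, by rw [← hx]; abel⟩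

variable [Fintype K] [DecidableEq K]

/-- the character sum -/
noncomputable def qsum [Fintype X] (F' : CForm K X) : ℂ := ∑ x : X, qc (-F'.Q x)

/-- recursion for the character sum -/
theorem qsum_rec [Fintype V] [Fintype X] (h2 : (2 : K) ≠ 0) (h : Hyp F F' e f j) (hQ : IsQ F) :
    qsum F = (Fintype.card K : ℂ) * qsum F' := by
  have h1 : qsum F = ∑ p : X × K × K, qc (-(p.2.1 * p.2.2 + F'.Q p.1)) := by
    unfold qsum
    symm
    refine Fintype.sum_bijective (fun p : X × K × K => p.2.1 • e + p.2.2 • f + j p.1) ⟨?_, ?_⟩ _ _ fun p => ?_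
    · rintro ⟨x, a, b⟩ ⟨x', a', b'⟩ hp
      obtain ⟨h3, h4, h5⟩ := par_inj h hQ hp
      exact Prod.ext h5 (Prod.ext h3 h4)
    · intro v
      obtain ⟨x, hx⟩ := exists_par h hQ v
      exact ⟨(x, F.B v f, F.B v e), hx.symm⟩
    · rw [Q_par h hQ]
  have h3 : ∀ r : K, ∑ a : K, ∑ b : K, qc (-(a * b + r)) = (Fintype.card K : ℂ) * qc (-r) := by
    intro r
    rw [Finset.sum_eq_single (0 : K)]
    · simp [nsmul_eq_mul]
    · intro a _ ha
      rw [← qc_sum h2]
      refine Fintype.sum_bijective (fun b => -(a * b + r)) ⟨?_, ?_⟩ _ _ fun b => rfl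
      · intro b b' hb
        exact mul_left_cancel₀ ha (add_right_cancel (neg_injective hb))
      · intro s
        refine ⟨a⁻¹ * (-s - r), ?_⟩
        change -(a * (a⁻¹ * (-s - r)) + r) = s
        rw [← mul_assoc, mul_inv_cancel₀ ha]
        ring
    · intro h
      exact absurd (Finset.mem_univ _) h
  rw [h1, Fintype.sum_prod_type]
  simp only [Fintype.sum_prod_type]
  rw [Finset.sum_congr rfl fun x _ => h3 (F'.Q x), ← Finset.mul_sum]
  rfl

end hyp

/-! ### the kernels -/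

section ker

variable {K : Type u} [Field K] {V : Type v} [AddCommGroup V] [Module K V] (F : CForm K V)

/-- the nonzero singular vectors -/
abbrev NS : Type v := {v : V // v ≠ 0 ∧ F.Sing v}

variable {F}

theorem NS.ne (v : NS F) : (v : V) ≠ 0 := v.2.1

theorem NS.sing (v : NS F) : F.Sing (v : V) := v.2.2

instance nsAct : MulAction F.iso (NS F) where
  smul g v := ⟨(g : V ≃ₗ[K] V) v, F.map_ne g v.2.1, F.sing_map g v.2.2⟩
  one_smul v := rfl
  mul_smul g h v := rfl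

theorem ns_smul (g : F.iso) (v : NS F) : ((g • v : NS F) : V) = (g : V ≃ₗ[K] V) v := rfl

/-- scalars -/
instance nsUnits : MulAction Kˣ (NS F) where
  smul c v := ⟨(c : K) • (v : V), smul_ne_zero c.ne_zero v.2.1, F.sing_smul v.2.2 _⟩
  one_smul v := Subtype.ext (one_smul K (v : V))
  mul_smul c d v := Subtype.ext (mul_smul (c : K) (d : K) (v : V))

theorem ns_units (c : Kˣ) (v : NS F) : ((c • v : NS F) : V) = (c : K) • (v : V) := rfl

theorem ns_comm (g : F.iso) (c : Kˣ) (v : NS F) : g • c • v = c • g • v :=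
  Subtype.ext (map_smul (g : V ≃ₗ[K] V) (c : K) (v : V))

theorem ns_smul_eq (v : NS F) {c : Kˣ} (h : v = c • v) : c = 1 := by
  have h1 : (v : V) = (c : K) • (v : V) := congrArg Subtype.val h
  have h2 : ((c : K) - 1) • (v : V) = 0 := by rw [sub_smul, one_smul, ← h1, sub_self]
  rcases smul_eq_zero.1 h2 with h3 | h3
  · exact Units.ext (sub_eq_zero.1 h3)
  · exact absurd h3 v.2.1

variable [Fintype K] [DecidableEq K] [Fintype (NS F)] [DecidableEq (NS F)]

/-- equivariant on the left -/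
def LEq (k : Matrix (NS F) (NS F) ℂ) : Prop := ∀ (c : Kˣ) (v w : NS F), k (c • v) w = qc (c : K) * k v w

/-- equivariant on the right -/
def REq (k : Matrix (NS F) (NS F) ℂ) : Prop := ∀ (c : Kˣ) (v w : NS F), k v (c • w) = qc (c : K) * k v w

variable (F)

/-- the projection -/
noncomputable def kE : Matrix (NS F) (NS F) ℂ := fun v w =>
  (Fintype.card Kˣ : ℂ)⁻¹ * ∑ c : Kˣ, qc (c : K) * if w = c • v then 1 else 0

/-- the form -/
noncomputable def kT : Matrix (NS F) (NS F) ℂ := fun v w => (Fintype.card Kˣ : ℂ)⁻¹ * qc (F.B v w)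

variable {F}

theorem cardU_ne : (Fintype.card Kˣ : ℂ) ≠ 0 := Nat.cast_ne_zero.2 Fintype.card_ne_zero

theorem kE_mul (k : Matrix (NS F) (NS F) ℂ) (v w : NS F) :
    (kE F * k) v w = (Fintype.card Kˣ : ℂ)⁻¹ * ∑ c : Kˣ, qc (c : K) * k (c • v) w := by
  rw [Matrix.mul_apply]
  have h1 : ∀ u : NS F, kE F v u * k u w =
      (Fintype.card Kˣ : ℂ)⁻¹ * ∑ c : Kˣ, qc (c : K) * ((if u = c • v then 1 else 0) * k u w) := by
    intro u
    unfold kE
    rw [mul_assoc, Finset.sum_mul]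
    congr 1
    exact Finset.sum_congr rfl fun c _ => by ring
  rw [Finset.sum_congr rfl fun u _ => h1 u, ← Finset.mul_sum, Finset.sum_comm]
  congr 1
  refine Finset.sum_congr rfl fun c _ => ?_
  rw [← Finset.mul_sum]
  congr 1
  simp

theorem kE_mul_of {k : Matrix (NS F) (NS F) ℂ} (h : LEq k) : kE F * k = k := by
  ext v w
  rw [kE_mul, Finset.sum_congr rfl fun c _ => by rw [h c v w, ← mul_assoc, qc_sq c.ne_zero, one_mul], Finset.sum_const,
    Finset.card_univ, nsmul_eq_mul, ← mul_assoc, inv_mul_cancel₀ cardU_ne, one_mul]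

theorem shift (g : NS F → ℂ) (d : Kˣ) (v : NS F) :
    ∑ c : Kˣ, qc (c : K) * g (c • d • v) = qc (d : K) * ∑ c : Kˣ, qc (c : K) * g (c • v) := by
  rw [Finset.mul_sum]
  refine Fintype.sum_equiv (Equiv.mulRight d) _ _ fun c => ?_
  rw [Equiv.coe_mulRight, ← mul_smul, ← mul_assoc, Units.val_mul, qc_mul]
  congr 1
  rw [mul_left_comm, qc_sq d.ne_zero, mul_one]

theorem LEq_of {k : Matrix (NS F) (NS F) ℂ} (h : kE F * k = k) : LEq k := by
  intro d v w
  conv_lhs => rw [← h]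
  conv_rhs => rw [← h]
  rw [kE_mul, kE_mul, shift (fun u => k u w) d v]
  ring

theorem kE_transpose : (kE F).transpose = kE F := by
  ext v w
  change kE F w v = kE F v w
  unfold kE
  congr 1
  refine Fintype.sum_equiv (Equiv.inv Kˣ) _ _ fun c => ?_
  rw [Equiv.inv_apply, Units.val_inv_eq_inv_val, qc_inv c.ne_zero]
  have : v = c • w ↔ w = c⁻¹ • v := by
    constructor
    · rintro h; rw [h, inv_smul_smul]
    · rintro h; rw [h, smul_inv_smul]
  simp only [this]

theorem REq.transpose {k : Matrix (NS F) (NS F) ℂ} (h : REq k) : LEq k.transpose := fun c v w => h c w v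

theorem mul_kE_of {k : Matrix (NS F) (NS F) ℂ} (h : REq k) : k * kE F = k := by
  have h1 := kE_mul_of h.transpose
  have h2 := congrArg Matrix.transpose h1
  rwa [Matrix.transpose_mul, Matrix.transpose_transpose, kE_transpose] at h2

theorem REq_of {k : Matrix (NS F) (NS F) ℂ} (h : k * kE F = k) : REq k := by
  have h1 : kE F * k.transpose = k.transpose := by
    rw [← kE_transpose, ← Matrix.transpose_mul, h]
  intro c v w
  exact LEq_of h1 c w v

theorem LEq_kE : LEq (kE F) := by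
  intro d v w
  unfold kE
  rw [shift (fun u => if w = u then 1 else 0) d v]
  ring

theorem kE_inv : KInv F.iso (kE F) := by
  intro g v w
  unfold kE
  congr 1
  refine Finset.sum_congr rfl fun c _ => ?_
  rw [← ns_comm]
  have : g • w = g • c • v ↔ w = c • v := ⟨fun h => MulAction.injective g h, fun h => by rw [h]⟩
  simp only [this]

theorem kT_inv : KInv F.iso (kT F) := by
  intro g v w
  unfold kT
  rw [ns_smul, ns_smul, F.iso_B]

theorem kE_self (v : NS F) : kE F v v = (Fintype.card Kˣ : ℂ)⁻¹ := by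
  unfold kE
  rw [Finset.sum_eq_single (1 : Kˣ)]
  · rw [one_smul, if_pos rfl, Units.val_one, qc_one, mul_one, mul_one]
  · intro c _ hc
    rw [if_neg fun h => hc (ns_smul_eq v h), mul_zero]
  · intro h
    exact absurd (Finset.mem_univ _) h

theorem kE_of_ne {v w : NS F} (h : F.B v w ≠ 0) : kE F v w = 0 := by
  unfold kE
  rw [Finset.sum_eq_zero, mul_zero]
  intro c _
  rw [if_neg, mul_zero]
  rintro rfl
  rw [ns_units, F.B_smul_right, v.2.2.2, mul_zero] at h
  exact h rfl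

theorem LEq_kT : LEq (kT F) := by
  intro c v w
  unfold kT
  rw [ns_units, F.B_smul_left, qc_mul]
  ring

theorem REq_kT (h : IsQ F) : REq (kT F) := by
  intro c v w
  unfold kT
  rw [ns_units, F.B_smul_right, h.hσ, qc_mul]
  ring

theorem REq_kE : REq (kE F) := REq_of (by
  rw [← kE_transpose, ← Matrix.transpose_mul, kE_mul_of LEq_kE])

theorem kT_self (v : NS F) : kT F v v = 0 := by
  unfold kT
  rw [v.2.2.2, qc_zero, mul_zero]

variable {X : Type w} [AddCommGroup X] [Module K X] {F' : CForm K X} {e f : V} {j : X →ₗ[K] V}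

/-- **the vanishing criterion** -/
theorem eq_zero_of [FiniteDimensional K V] (h2 : (2 : K) ≠ 0) (hQ : IsQ F) {v₀ w₀ : NS F} (h01 : F.B v₀ w₀ = 1)
    {k : Matrix (NS F) (NS F) ℂ} (hk : KInv F.iso k) (hl : LEq k) (hr : REq k) (h0 : k v₀ v₀ = 0) (h1 : k v₀ w₀ = 0) :
    k = 0 := by
  ext v w
  rw [Matrix.zero_apply]
  by_cases hvw : F.B v w = 0
  · by_cases hc : ∃ c : Kˣ, w = c • v
    · obtain ⟨c, rfl⟩ := hc
      rw [hr]
      obtain ⟨g, hg⟩ := trans_vec F v₀.2.1 v₀.2.2 v.2.1 v.2.2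
      have h3 : g • v₀ = v := Subtype.ext hg
      rw [← h3, hk, h0, mul_zero]
    · obtain ⟨c, hc1⟩ := exists_qc_neg h2
      obtain ⟨g, hg1, hg2⟩ := trans_scale F v.2.1 v.2.2 w.2.1 w.2.2 hvw (fun a ha => hc ⟨Units.mk0 a (by
        rintro rfl
        rw [zero_smul] at ha
        exact w.2.1 ha), Subtype.ext ha⟩) c
      have h3 : g • v = v := Subtype.ext hg1
      have h4 : g • w = c • w := Subtype.ext hg2
      have h5 := hk g v w
      rw [h3, h4, hr, hc1] at h5
      have h6 : (2 : ℂ) * k v w = 0 := by linear_combination -h5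
      rcases mul_eq_zero.1 h6 with h7 | h7
      · exact absurd h7 two_ne_zero
      · exact h7
  · obtain ⟨u₀, hu₀⟩ : ∃ u₀ : Kˣ, (u₀ : K) = F.B v w := ⟨Units.mk0 _ hvw, rfl⟩
    have hb : F.B (v : V) ((u₀⁻¹ • w : NS F) : V) = 1 := by
      rw [ns_units, F.B_smul_right, hQ.hσ, Units.val_inv_eq_inv_val, hu₀, inv_mul_cancel₀ hvw]
    obtain ⟨g, hg1, hg2⟩ := trans_pair F v₀.2.1 v₀.2.2 w₀.2.2 h01 v.2.1 v.2.2 (u₀⁻¹ • w : NS F).2.2 hb
    have h3 : g • v₀ = v := Subtype.ext hg1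
    have h4 : g • w₀ = u₀⁻¹ • w := Subtype.ext hg2
    have h5 : k v (u₀⁻¹ • w) = 0 := by rw [← h3, ← h4, hk, h1]
    have h6 : w = u₀ • u₀⁻¹ • w := (smul_inv_smul _ _).symm
    rw [h6, hr, h5, mul_zero]

theorem LEq.comb {k l : Matrix (NS F) (NS F) ℂ} (h : LEq k) (h' : LEq l) (a b : ℂ) : LEq (a • k + b • l) := by
  intro c v w
  rw [Matrix.add_apply, Matrix.add_apply, Matrix.smul_apply, Matrix.smul_apply, Matrix.smul_apply, Matrix.smul_apply,
    h, h', smul_eq_mul, smul_eq_mul, smul_eq_mul, smul_eq_mul]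
  ring

theorem REq.comb {k l : Matrix (NS F) (NS F) ℂ} (h : REq k) (h' : REq l) (a b : ℂ) : REq (a • k + b • l) := by
  intro c v w
  rw [Matrix.add_apply, Matrix.add_apply, Matrix.smul_apply, Matrix.smul_apply, Matrix.smul_apply, Matrix.smul_apply,
    h, h', smul_eq_mul, smul_eq_mul, smul_eq_mul, smul_eq_mul]
  ring

/-- **the commutant** -/
theorem eq_comb [FiniteDimensional K V] (h2 : (2 : K) ≠ 0) (hQ : IsQ F) {v₀ w₀ : NS F} (h01 : F.B v₀ w₀ = 1)
    {k : Matrix (NS F) (NS F) ℂ} (hk : KInv F.iso k) (hl : LEq k) (hr : REq k) :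
    k = ((Fintype.card Kˣ : ℂ) * k v₀ v₀) • kE F + ((Fintype.card Kˣ : ℂ) * k v₀ w₀) • kT F := by
  have hne : F.B v₀ w₀ ≠ 0 := by rw [h01]; exact one_ne_zero
  have hU := cardU_ne (K := K)
  rw [← sub_eq_zero]
  have e1 : k - (((Fintype.card Kˣ : ℂ) * k v₀ v₀) • kE F + ((Fintype.card Kˣ : ℂ) * k v₀ w₀) • kT F) =
      (1 : ℂ) • k + (-1 : ℂ) • (((Fintype.card Kˣ : ℂ) * k v₀ v₀) • kE F + ((Fintype.card Kˣ : ℂ) * k v₀ w₀) • kT F) := by
    module
  refine eq_zero_of h2 hQ h01 (hk.sub ((kE_inv.smul _).add (kT_inv.smul _))) ?_ ?_ ?_ ?_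
  · rw [e1]
    exact hl.comb (LEq_kE.comb LEq_kT _ _) _ _
  · rw [e1]
    exact hr.comb (REq_kE.comb (REq_kT hQ) _ _) _ _
  · rw [Matrix.sub_apply, Matrix.add_apply, Matrix.smul_apply, Matrix.smul_apply, kE_self, kT_self, smul_zero, add_zero,
      smul_eq_mul]
    field_simp
    ring
  · rw [Matrix.sub_apply, Matrix.add_apply, Matrix.smul_apply, Matrix.smul_apply, kE_of_ne hne, smul_zero, zero_add,
      smul_eq_mul]
    unfold kT
    rw [h01, qc_one]
    field_simp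
    ring

/-! ### the sums -/

section sums

/-- the singular vectors not perpendicular to `e` -/
noncomputable def par (h : Hyp F F' e f j) (hQ : IsQ F) (p : Kˣ × X) : NS F :=
  ⟨(-(((p.1⁻¹ : Kˣ) : K) * F'.Q p.2)) • e + (p.1 : K) • f + j p.2, by
    intro h0
    have h1 := B_e_par h hQ (-(((p.1⁻¹ : Kˣ) : K) * F'.Q p.2)) (p.1 : K) p.2
    rw [h0, F.B_zero_right] at h1
    exact p.1.ne_zero h1.symm, by
    have h1 : F.Q ((-(((p.1⁻¹ : Kˣ) : K) * F'.Q p.2)) • e + (p.1 : K) • f + j p.2) = 0 := by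
      rw [Q_par h hQ]
      have := p.1.inv_mul
      linear_combination (-F'.Q p.2) * this
    exact ⟨h1, F.alt _ h1⟩⟩

theorem sum_par [Fintype X] (h : Hyp F F' e f j) (hQ : IsQ F) (g : NS F → ℂ) (hg : ∀ w : NS F, F.B e w = 0 → g w = 0) :
    ∑ w, g w = ∑ p : Kˣ × X, g (par h hQ p) := by
  symm
  refine Fintype.sum_of_injective (par h hQ) ?_ _ _ (fun w hw => ?_) fun p => rfl
  · rintro ⟨b, x⟩ ⟨b', x'⟩ hp
    obtain ⟨-, h3, h4⟩ := par_inj h hQ (congrArg Subtype.val hp)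
    exact Prod.ext (Units.ext h3) h4
  · apply hg
    by_contra hb
    apply hw
    have hb' : F.B (w : V) e ≠ 0 := by rwa [hQ.symm]
    obtain ⟨x, hx⟩ := exists_par h hQ w
    have h1 := w.2.2.1
    rw [hx, Q_par h hQ] at h1
    refine ⟨(Units.mk0 _ hb', x), Subtype.ext ?_⟩
    have h3 : -((((Units.mk0 _ hb' : Kˣ)⁻¹ : Kˣ) : K) * F'.Q x) = F.B (w : V) f := by
      rw [Units.val_inv_eq_inv_val, Units.val_mk0]
      field_simp
      linear_combination -h1
    change (-((((Units.mk0 _ hb' : Kˣ)⁻¹ : Kˣ) : K) * F'.Q x)) • e + F.B (w : V) e • f + j x = w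
    rw [h3]
    exact hx.symm

theorem kT_sq [FiniteDimensional K V] [Fintype X] (h2 : (2 : K) ≠ 0) (h : Hyp F F' e f j) (hQ : IsQ F) :
    kT F * kT F = (qsum F') • kT F + (Fintype.card X : ℂ) • kE F := by
  have hU := cardU_ne (K := K)
  obtain ⟨v₀, hv₀⟩ : ∃ v₀ : NS F, (v₀ : V) = e := ⟨⟨e, h.e0, h.he⟩, rfl⟩
  obtain ⟨w₀, hw₀⟩ : ∃ w₀ : NS F, (w₀ : V) = f := ⟨⟨f, h.f0, h.hf⟩, rfl⟩
  have h01 : F.B v₀ w₀ = 1 := by rw [hv₀, hw₀, h.hef]
  have hl : LEq (kT F * kT F) := LEq_of (by rw [← Matrix.mul_assoc, kE_mul_of LEq_kT])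
  have hr : REq (kT F * kT F) := REq_of (by rw [Matrix.mul_assoc, mul_kE_of (REq_kT hQ)])
  have h1 := eq_comb h2 hQ h01 (kT_inv.mul kT_inv) hl hr
  have e1 : (Fintype.card Kˣ : ℂ) * (kT F * kT F) v₀ v₀ = Fintype.card X := by
    rw [Matrix.mul_apply, sum_par h hQ _ (fun w hw => by
      unfold kT
      rw [hv₀, hw, qc_zero, mul_zero, zero_mul])]
    have e3 : ∀ p : Kˣ × X, kT F v₀ (par h hQ p) * kT F (par h hQ p) v₀ =
        (Fintype.card Kˣ : ℂ)⁻¹ * (Fintype.card Kˣ : ℂ)⁻¹ := by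
      intro p
      unfold kT
      have e4 : F.B e (par h hQ p) = p.1 := B_e_par h hQ _ _ _
      rw [hv₀, hQ.symm (par h hQ p) e, e4]
      have := qc_sq p.1.ne_zero
      linear_combination ((Fintype.card Kˣ : ℂ)⁻¹ * (Fintype.card Kˣ : ℂ)⁻¹) * this
    rw [Finset.sum_congr rfl fun p _ => e3 p, Finset.sum_const, Finset.card_univ, Fintype.card_prod, nsmul_eq_mul,
      Nat.cast_mul]
    field_simp
  have e2 : (Fintype.card Kˣ : ℂ) * (kT F * kT F) v₀ w₀ = qsum F' := by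
    rw [Matrix.mul_apply, sum_par h hQ _ (fun w hw => by
      unfold kT
      rw [hv₀, hw, qc_zero, mul_zero, zero_mul])]
    have e3 : ∀ p : Kˣ × X, kT F v₀ (par h hQ p) * kT F (par h hQ p) w₀ =
        (Fintype.card Kˣ : ℂ)⁻¹ * (Fintype.card Kˣ : ℂ)⁻¹ * qc (-F'.Q p.2) := by
      intro p
      unfold kT
      have e4 : F.B e (par h hQ p) = p.1 := B_e_par h hQ _ _ _
      have e5 : F.B (par h hQ p) f = -(((p.1⁻¹ : Kˣ) : K) * F'.Q p.2) := B_par_f h _ _ _
      have e6 : -(((p.1⁻¹ : Kˣ) : K) * F'.Q p.2) = (p.1 : K)⁻¹ * (-F'.Q p.2) := by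
        rw [Units.val_inv_eq_inv_val]; ring
      rw [hv₀, hw₀, e4, e5, e6, qc_mul, qc_inv p.1.ne_zero]
      have := qc_sq p.1.ne_zero
      linear_combination ((Fintype.card Kˣ : ℂ)⁻¹ * (Fintype.card Kˣ : ℂ)⁻¹ * qc (-F'.Q p.2)) * this
    rw [Finset.sum_congr rfl fun p _ => e3 p, ← Finset.mul_sum, Fintype.sum_prod_type]
    simp only [Finset.sum_const, Finset.card_univ, nsmul_eq_mul]
    unfold qsum
    field_simp
  rw [e1, e2] at h1
  rw [h1]
  abel

theorem trace_kT : Matrix.trace (kT F) = 0 := by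
  unfold Matrix.trace
  exact Finset.sum_eq_zero fun v _ => kT_self v

theorem trace_kE : Matrix.trace (kE F) = (Fintype.card Kˣ : ℂ)⁻¹ * Fintype.card (NS F) := by
  unfold Matrix.trace
  have : ∀ v : NS F, (kE F).diag v = (Fintype.card Kˣ : ℂ)⁻¹ := fun v => kE_self v
  rw [Finset.sum_congr rfl fun v _ => this v, Finset.sum_const, Finset.card_univ, nsmul_eq_mul, mul_comm]

/-- **the constituents** -/
theorem exists_sgn [FiniteDimensional K V] [Finite V] [Fintype X] (h2 : (2 : K) ≠ 0) (h : Hyp F F' e f j) (hQ : IsQ F)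
    {lam mu : ℂ} (hs : lam + mu = qsum F') (hp : lam * mu = -(Fintype.card X : ℂ)) (hne : lam ≠ mu) :
    ∃ χ : F.iso → ℂ, IsIrrCharacter F.iso χ ∧
      (lam - mu) * χ 1 * (Fintype.card Kˣ : ℂ) = -mu * (Nat.card (NS F) : ℂ) ∧
      ∀ (z : F.iso) (c : Kˣ), (∀ v, (z : V ≃ₗ[K] V) v = (c : K) • v) → χ z = qc (c : K) * χ 1 := by
  have hU := cardU_ne (K := K)
  have hfi := finite_iso F
  have hX : (Fintype.card X : ℂ) ≠ 0 := by
    have : 0 < Fintype.card X := Fintype.card_pos_iff.2 ⟨0⟩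
    exact_mod_cast this.ne'
  have hmu : mu ≠ 0 := by
    rintro rfl
    rw [mul_zero] at hp
    exact hX (neg_eq_zero.1 hp.symm)
  have hN : (Fintype.card (NS F) : ℂ) ≠ 0 := by
    have : 0 < Fintype.card (NS F) := Fintype.card_pos_iff.2 ⟨⟨e, h.e0, h.he⟩⟩
    exact_mod_cast this.ne'
  have h01 : F.B ((⟨e, h.e0, h.he⟩ : NS F) : V) ((⟨f, h.f0, h.hf⟩ : NS F) : V) = 1 := h.hef
  obtain ⟨χ, hχ, h3, h4⟩ := exists_one (G := F.iso) (N := NS F) (E := kE F) (T := kT F) kE_inv kT_inv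
    (kE_mul_of LEq_kE) (kE_mul_of LEq_kT) (mul_kE_of (REq_kT hQ)) (lam := lam) (mu := mu) (by
      rw [kT_sq h2 h hQ, hs, hp]
      module) hne (fun k hk hl hr => ⟨_, _, eq_comb h2 hQ h01 hk (LEq_of hl) (REq_of hr)⟩) (by
      rw [trace_kT, trace_kE, zero_sub, neg_ne_zero]
      exact mul_ne_zero hmu (mul_ne_zero (inv_ne_zero hU) hN))
  refine ⟨χ, hχ, ?_, fun z c hz => ?_⟩
  · rw [h3, trace_kT, trace_kE, Nat.card_eq_fintype_card]
    field_simp
    ring
  · apply h4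
    refine LinearMap.ext fun g => ?_
    ext v
    have e1 : z⁻¹ • v = c⁻¹ • v := by
      rw [inv_smul_eq_iff]
      apply Subtype.ext
      rw [ns_smul, hz, ns_units, smul_smul, Units.val_inv_eq_inv_val, mul_inv_cancel₀ c.ne_zero, one_smul]
    change ∑ w, kE F (z⁻¹ • v) w * g w = qc (c : K) * ∑ w, kE F v w * g w
    rw [e1, Finset.mul_sum]
    refine Finset.sum_congr rfl fun w _ => ?_
    rw [LEq_kE, Units.val_inv_eq_inv_val, qc_inv c.ne_zero, mul_assoc]

end sums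

end ker

end Cfsg.Agent.H539.Eight
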