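import Cfsg.Agent.H539.Eight.Sgn

/-!
# The sign constituents for the orthogonal groups (helper539)

`sgn_odd` : `(q² - 1) χ(1) = q^(2m) - 1` and `(q² - 1) χ(1) = q (q^(2m) - 1)` for `O_(2m+1)(q)`;
`sgn_plus` : `2 (q - 1) χ(1) = (q^m - 1)(q^(m-1) + 1)` for `O⁺_2m(q)`.
-/

set_option autoImplicit false
set_option linter.unusedSectionVars false

open scoped ComplexConjugate
open Cfsg

namespace Cfsg.Agent.H539.Eight

open Cfsg.Agent.Characters Module Cfsg.Agent.H477.HC Cfsg.Agent.H477.HC.CForm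

universe u v w

variable (K : Type u) [Field K] [Finite K]

omit [Finite K] in
theorem isQ_odd (m : ℕ) (h2 : (2 : K) ≠ 0) : IsQ (oddF K m h2) := ⟨fun _ => rfl, rfl, fun _ => rfl⟩

omit [Finite K] in
theorem isQ_plus (m : ℕ) : IsQ (plusF K m) := ⟨fun _ => rfl, rfl, fun _ => rfl⟩

theorem qsum_odd [Fintype K] [DecidableEq K] (h2 : (2 : K) ≠ 0) (n : ℕ) :
    qsum (oddF K n h2) = qc (-1 : K) * ((Fintype.card K : ℂ) - 1) * (Fintype.card K : ℂ) ^ n := by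
  induction n with
  | zero =>
    have h1 : qsum (oddF K 0 h2) = ∑ t : K, qc (-(t ^ 2)) := by
      unfold qsum
      refine Fintype.sum_bijective (fun x : Unit ⊕ (Fin 0 ⊕ Fin 0) → K => x (Sum.inl ())) ⟨?_, ?_⟩ _ _ fun x => ?_
      · intro x y hxy
        ext i
        rcases i with ⟨⟩ | i | i
        · exact hxy
        · exact i.elim0
        · exact i.elim0
      · exact fun t => ⟨fun _ => t, rfl⟩
      · have e1 : (oddF K 0 h2).Q x = x (Sum.inl ()) ^ 2 := by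
          change quadFormOdd 0 K x = _
          simp [quadFormOdd]
        rw [e1]
    have h3 : ∀ t : K, qc (-(t ^ 2)) = qc (-1 : K) - if t = 0 then qc (-1 : K) else 0 := by
      intro t
      have e1 : -(t ^ 2) = -1 * (t * t) := by ring
      rw [e1, qc_mul, qc_mul]
      by_cases ht : t = 0
      · rw [if_pos ht, ht, qc_zero]
        ring
      · rw [if_neg ht, qc_sq ht]
        ring
    rw [h1, Finset.sum_congr rfl fun t _ => h3 t, Finset.sum_sub_distrib, Finset.sum_const, Finset.card_univ,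
      Finset.sum_ite_eq' Finset.univ (0 : K), if_pos (Finset.mem_univ _), nsmul_eq_mul, pow_zero]
    ring
  | succ n ih =>
    obtain ⟨e, f, j, h⟩ := frm_odd (K := K) h2 (show 1 + n = n + 1 by omega)
    rw [qsum_rec h2 h.hyp (isQ_odd K (n + 1) h2), ih, pow_succ]
    ring

theorem qsum_plus [Fintype K] [DecidableEq K] (h2 : (2 : K) ≠ 0) (n : ℕ) : qsum (plusF K n) = 0 := by
  induction n with
  | zero =>
    unfold qsum
    refine Finset.sum_eq_zero fun x _ => ?_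
    have : (plusF K 0).Q x = 0 := by
      change quadFormPlus 0 K x = 0
      simp [quadFormPlus]
    rw [this, neg_zero, qc_zero]
  | succ n ih =>
    obtain ⟨e, f, j, h⟩ := frm_plus (K := K) (show 1 + n = n + 1 by omega)
    rw [qsum_rec h2 h.hyp (isQ_plus K (n + 1)), ih, mul_zero]

/-- **odd dimension** -/
theorem sgn_odd (h2 : (2 : K) ≠ 0) (ho : Odd (Nat.card K)) {m : ℕ} (hm : 1 ≤ m) :
    (∃ (χ : (oddF K m h2).iso → ℂ) (a : ℕ), IsIrrCharacter (oddF K m h2).iso χ ∧ χ 1 = a ∧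
      (Nat.card K ^ 2 - 1) * a = Nat.card K ^ (2 * m) - 1) ∧
    ∃ (χ : (oddF K m h2).iso → ℂ) (b : ℕ), IsIrrCharacter (oddF K m h2).iso χ ∧ χ 1 = b ∧
      (Nat.card K ^ 2 - 1) * b = Nat.card K * (Nat.card K ^ (2 * m) - 1) := by
  classical
  have hfin := Fintype.ofFinite K
  have := Fintype.ofFinite (NS (oddF K m h2))
  have hq : 2 ≤ Nat.card K := Finite.one_lt_card
  obtain ⟨q, hqq⟩ : ∃ q, q = Nat.card K := ⟨_, rfl⟩
  obtain ⟨n, rfl⟩ : ∃ n, m = n + 1 := ⟨m - 1, by omega⟩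
  obtain ⟨e, f, j, h⟩ := frm_odd (K := K) h2 (show 1 + n = n + 1 by omega)
  have hN : Nat.card (NS (oddF K (n + 1) h2)) = q ^ (2 * (n + 1)) - 1 := by
    rw [hqq]
    exact card_ns_odd K h2 ho (n + 1)
  have hU : (Fintype.card Kˣ : ℂ) = (q : ℂ) - 1 := by
    have h1 : Fintype.card Kˣ = q - 1 := by
      rw [hqq, ← Nat.card_units, Nat.card_eq_fintype_card]
    rw [h1, Nat.cast_sub (by omega), Nat.cast_one]
  have hX : (Fintype.card (Unit ⊕ (Fin n ⊕ Fin n) → K) : ℂ) = (q : ℂ) ^ (2 * n + 1) := by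
    have h1 : Fintype.card (Unit ⊕ (Fin n ⊕ Fin n) → K) = q ^ (2 * n + 1) := by
      rw [Fintype.card_fun, hqq, Nat.card_eq_fintype_card]
      congr 1
      simp
      ring
    rw [h1, Nat.cast_pow]
  have hS := qsum_odd K h2 n
  rw [show (Fintype.card K : ℂ) = (q : ℂ) by rw [hqq, Nat.card_eq_fintype_card]] at hS
  obtain ⟨ε, hε⟩ : ∃ ε : ℂ, ε = qc (-1 : K) := ⟨_, rfl⟩
  have hεε : ε * ε = 1 := by rw [hε]; exact qc_neg_one_sq
  have hε0 : ε ≠ 0 := by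
    rintro rfl
    rw [mul_zero] at hεε
    exact zero_ne_one hεε
  rw [← hε] at hS
  have hqc : (q : ℂ) ≠ 0 := by exact_mod_cast (by omega : q ≠ 0)
  have hq1 : (q : ℂ) + 1 ≠ 0 := by exact_mod_cast (by omega : q + 1 ≠ 0)
  have hNc : (Nat.card (NS (oddF K (n + 1) h2)) : ℂ) = (q : ℂ) ^ (2 * (n + 1)) - 1 := by
    rw [hN, Nat.cast_sub (Nat.one_le_pow _ _ (by omega)), Nat.cast_pow, Nat.cast_one]
  have hlm : ε * (q : ℂ) ^ (n + 1) - (-(ε * (q : ℂ) ^ n)) = ε * (q : ℂ) ^ n * ((q : ℂ) + 1) := by ring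
  have hne : ε * (q : ℂ) ^ (n + 1) ≠ -(ε * (q : ℂ) ^ n) := by
    intro h0
    rw [← sub_eq_zero, hlm] at h0
    exact mul_ne_zero (mul_ne_zero hε0 (pow_ne_zero _ hqc)) hq1 h0
  have hzn : ε * (q : ℂ) ^ n ≠ 0 := mul_ne_zero hε0 (pow_ne_zero _ hqc)
  constructor
  · obtain ⟨χ, hχ, h3, -⟩ := exists_sgn h2 h.hyp (isQ_odd K (n + 1) h2) (lam := ε * (q : ℂ) ^ (n + 1))
      (mu := -(ε * (q : ℂ) ^ n)) (by rw [hS]; ring) (by
        rw [hX]
        linear_combination (-(q : ℂ) ^ (2 * n + 1)) * hεε) hne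
    obtain ⟨a, ha⟩ := Core.isCharacter_apply_one (Core.isIrr_isCharacter hχ)
    refine ⟨χ, a, hχ, ha, ?_⟩
    rw [ha, hlm, hU, hNc] at h3
    have h4 : ((q : ℂ) ^ 2 - 1) * a = (q : ℂ) ^ (2 * (n + 1)) - 1 := by
      apply mul_left_cancel₀ hzn
      linear_combination h3
    rw [← hqq]
    have h5 : (((q ^ 2 - 1) * a : ℕ) : ℂ) = ((q ^ (2 * (n + 1)) - 1 : ℕ) : ℂ) := by
      rw [Nat.cast_mul, Nat.cast_sub (Nat.one_le_pow _ _ (by omega)), Nat.cast_sub (Nat.one_le_pow _ _ (by omega)),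
        Nat.cast_pow, Nat.cast_pow, Nat.cast_one]
      exact h4
    exact_mod_cast h5
  · obtain ⟨χ, hχ, h3, -⟩ := exists_sgn h2 h.hyp (isQ_odd K (n + 1) h2) (lam := -(ε * (q : ℂ) ^ n))
      (mu := ε * (q : ℂ) ^ (n + 1)) (by rw [hS]; ring) (by
        rw [hX]
        linear_combination (-(q : ℂ) ^ (2 * n + 1)) * hεε) hne.symm
    obtain ⟨b, hb⟩ := Core.isCharacter_apply_one (Core.isIrr_isCharacter hχ)
    refine ⟨χ, b, hχ, hb, ?_⟩
    rw [hb, hU, hNc] at h3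
    have h4 : ((q : ℂ) ^ 2 - 1) * b = (q : ℂ) * ((q : ℂ) ^ (2 * (n + 1)) - 1) := by
      apply mul_left_cancel₀ hzn
      linear_combination -h3
    rw [← hqq]
    have h5 : (((q ^ 2 - 1) * b : ℕ) : ℂ) = ((q * (q ^ (2 * (n + 1)) - 1) : ℕ) : ℂ) := by
      rw [Nat.cast_mul, Nat.cast_mul, Nat.cast_sub (Nat.one_le_pow _ _ (by omega)),
        Nat.cast_sub (Nat.one_le_pow _ _ (by omega)), Nat.cast_pow, Nat.cast_pow, Nat.cast_one]
      exact h4
    exact_mod_cast h5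

/-- **plus type**, `m ≥ 1` -/
theorem sgn_plus (h2 : (2 : K) ≠ 0) {m : ℕ} (hm : 1 ≤ m) :
    ∃ (χ : (plusF K m).iso → ℂ) (a : ℕ), IsIrrCharacter (plusF K m).iso χ ∧ χ 1 = a ∧
      2 * (Nat.card K - 1) * a = (Nat.card K ^ m - 1) * (Nat.card K ^ (m - 1) + 1) ∧
      (IsSquare (-1 : K) → ∀ z : (plusF K m).iso,
        (∀ v, (z : (Fin m ⊕ Fin m → K) ≃ₗ[K] (Fin m ⊕ Fin m → K)) v = -v) → χ z = χ 1) := by
  classical
  have hfin := Fintype.ofFinite K
  have := Fintype.ofFinite (NS (plusF K m))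
  have hq : 2 ≤ Nat.card K := Finite.one_lt_card
  obtain ⟨q, hqq⟩ : ∃ q, q = Nat.card K := ⟨_, rfl⟩
  obtain ⟨n, rfl⟩ : ∃ n, m = n + 1 := ⟨m - 1, by omega⟩
  obtain ⟨e, f, j, h⟩ := frm_plus (K := K) (show 1 + n = n + 1 by omega)
  have hN : Nat.card (NS (plusF K (n + 1))) = (q ^ (n + 1) - 1) * (q ^ n + 1) := by
    rw [hqq]
    exact card_ns_plus K hm
  have hU : (Fintype.card Kˣ : ℂ) = (q : ℂ) - 1 := by
    have h1 : Fintype.card Kˣ = q - 1 := by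
      rw [hqq, ← Nat.card_units, Nat.card_eq_fintype_card]
    rw [h1, Nat.cast_sub (by omega), Nat.cast_one]
  have hX : (Fintype.card (Fin n ⊕ Fin n → K) : ℂ) = (q : ℂ) ^ (2 * n) := by
    have h1 : Fintype.card (Fin n ⊕ Fin n → K) = q ^ (2 * n) := by
      rw [Fintype.card_fun, hqq, Nat.card_eq_fintype_card]
      congr 1
      simp
      ring
    rw [h1, Nat.cast_pow]
  have hqc : (q : ℂ) ≠ 0 := by exact_mod_cast (by omega : q ≠ 0)
  have hNc : (Nat.card (NS (plusF K (n + 1))) : ℂ) = ((q : ℂ) ^ (n + 1) - 1) * ((q : ℂ) ^ n + 1) := by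
    rw [hN, Nat.cast_mul, Nat.cast_sub (Nat.one_le_pow _ _ (by omega)), Nat.cast_add, Nat.cast_pow, Nat.cast_pow,
      Nat.cast_one]
  have hlm : (q : ℂ) ^ n - (-(q : ℂ) ^ n) = 2 * (q : ℂ) ^ n := by ring
  have hne : (q : ℂ) ^ n ≠ -(q : ℂ) ^ n := by
    intro h0
    rw [← sub_eq_zero, hlm] at h0
    exact mul_ne_zero two_ne_zero (pow_ne_zero _ hqc) h0
  obtain ⟨χ, hχ, h3, h6⟩ := exists_sgn h2 h.hyp (isQ_plus K (n + 1)) (lam := (q : ℂ) ^ n)
    (mu := -(q : ℂ) ^ n) (by rw [qsum_plus K h2 n]; ring) (by rw [hX]; ring) hne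
  obtain ⟨a, ha⟩ := Core.isCharacter_apply_one (Core.isIrr_isCharacter hχ)
  refine ⟨χ, a, hχ, ha, ?_, fun hsq z hz => ?_⟩
  · rw [ha, hlm, hU, hNc] at h3
    have h4 : 2 * ((q : ℂ) - 1) * a = ((q : ℂ) ^ (n + 1) - 1) * ((q : ℂ) ^ n + 1) := by
      apply mul_left_cancel₀ (pow_ne_zero n hqc)
      linear_combination h3
    rw [← hqq, Nat.add_sub_cancel]
    have h5 : ((2 * (q - 1) * a : ℕ) : ℂ) = (((q ^ (n + 1) - 1) * (q ^ n + 1) : ℕ) : ℂ) := by
      rw [Nat.cast_mul, Nat.cast_mul, Nat.cast_mul, Nat.cast_sub (by omega), Nat.cast_sub (Nat.one_le_pow _ _ (by omega)),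
        Nat.cast_add, Nat.cast_pow, Nat.cast_pow, Nat.cast_one]
      exact h4
    exact_mod_cast h5
  · have h7 := h6 z (-1) (fun v => by rw [hz, Units.val_neg, Units.val_one, neg_one_smul])
    rw [h7]
    obtain ⟨y, hy⟩ := hsq
    have hy0 : y ≠ 0 := by
      rintro rfl
      rw [mul_zero] at hy
      exact neg_ne_zero.2 one_ne_zero hy
    rw [Units.val_neg, Units.val_one, hy, qc_mul, qc_sq hy0, one_mul]

end Cfsg.Agent.H539.Eight
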